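import Mathlib
import Cfsg.Prelude.Def_Characters
import Cfsg.Prelude.Def_CharExt
import Cfsg.Agent.S0175
import Cfsg.Agent.S0138
import Cfsg.Agent.S0855
import Cfsg.Agent.Lib.ThompsonDeg
import Cfsg.Agent.Lib.ItoConv
import Cfsg.Agent.H82.DetChar
import Cfsg.Agent.H82.IndDeg

/-!
# Groups with two character degrees, part A (helper82)

* `taketa_le` : if `cd(G) ⊆ {1, m}` and `[G:H] ≤ m` then `G' ≤ H`;
* `comm_of_coprime_normal` : if `cd(G) ⊆ {1, m}`, a normal subgroup of order prime to `m` is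
  abelian;
* `exists_hom_of_scalar` : an irreducible character of `T` whose restriction to `B` is a multiple
  of the linear character `c`, of degree prime to `|B|`, yields an extension of `c` to `T`
  (a power of the determinant).
-/

set_option autoImplicit false
set_option linter.style.haveILetI false

namespace Cfsg.Agent.H82

open Cfsg Cfsg.Agent.H4
open scoped ComplexConjugate commutatorElement

universe u

section TwoDegA

variable {G : Type u} [Group G]

/-- Taketa's trick: if `cd(G) ⊆ {1, m}` and `[G:H] ≤ m` then `G' ≤ H`. -/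
theorem taketa_le [Finite G] (m : ℕ)
    (hcd : ∀ χ : IrrCharacter G, charDegree χ.1 = 1 ∨ charDegree χ.1 = m)
    (H : Subgroup G) (hH : H.index ≤ m) : commutator G ≤ H := by
  classical
  haveI := Fintype.ofFinite G
  letI := fintypeIrr G
  intro x hx
  apply Cfsg.Agent.S0175.mem_of_indFun_one_eq H
  set π : G → ℂ := indFun H (fun _ => (1 : ℂ)) with hπ
  have hπ1 : π 1 = (H.index : ℂ) := by rw [hπ, indFun_one_eq, mul_one]
  have hπchar : IsCharacter G π :=
    isCharacter_indFun H _ (isCharacter_of_isIrrCharacter (Cfsg.Agent.H83.isIrrCharacter_one H))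
  obtain ⟨a, ha⟩ := isCharacter_iff.mp hπchar
  set triv : IrrCharacter G := Cfsg.Agent.H83.trivChar G with htriv
  have ha_triv : a triv = 1 := by
    have h1 : classInner π triv.1 = a triv := by rw [ha, classInner_finsum_irr]
    have h2 : classInner π triv.1 = 1 := by
      haveI : Fintype H := Fintype.ofFinite H
      have hcf : IsClassFunction G triv.1 := irr_isClassFunction triv
      rw [hπ, frobenius_reciprocity H _ _ hcf]
      exact irr_inner_self (Cfsg.Agent.H83.trivChar H)
    rw [h2] at h1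
    exact_mod_cast h1.symm
  have hπapp : ∀ y : G, π y = ∑ ψ : IrrCharacter G, (a ψ : ℂ) * ψ.1 y := by
    intro y
    have := congrFun ha y
    rw [finsum_irr_eq_sum, Finset.sum_apply] at this
    rw [this]
    rfl
  have hsum : ∑ ψ : IrrCharacter G, a ψ * charDegree ψ.1 = H.index := by
    have h1 := hπapp 1
    rw [hπ1] at h1
    have h2 : ((H.index : ℕ) : ℂ) = ((∑ ψ : IrrCharacter G, a ψ * charDegree ψ.1 : ℕ) : ℂ) := by
      rw [h1]; push_cast
      refine Finset.sum_congr rfl fun ψ _ => ?_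
      rw [irr_one_eq_charDegree]
    exact_mod_cast h2.symm
  have hdeg_triv : charDegree triv.1 = 1 := by
    have h1 : triv.1 1 = 1 := rfl
    have := irr_one_eq_charDegree triv
    rw [h1] at this
    exact_mod_cast this.symm
  have hconst : ∀ ψ : IrrCharacter G, a ψ ≠ 0 → ψ.1 x = ψ.1 1 := by
    intro ψ hψ
    have hlin : charDegree ψ.1 = 1 := by
      by_cases hψt : ψ = triv
      · rw [hψt]; exact hdeg_triv
      · have h1 : a triv * charDegree triv.1 + a ψ * charDegree ψ.1 ≤ H.index := by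
          rw [← hsum, ← Finset.add_sum_erase Finset.univ _ (Finset.mem_univ triv)]
          apply Nat.add_le_add_left
          exact Finset.single_le_sum (f := fun ψ => a ψ * charDegree ψ.1)
            (fun _ _ => Nat.zero_le _) (Finset.mem_erase.mpr ⟨hψt, Finset.mem_univ ψ⟩)
        rw [ha_triv, hdeg_triv] at h1
        have h2 : charDegree ψ.1 ≤ a ψ * charDegree ψ.1 :=
          Nat.le_mul_of_pos_left _ (Nat.pos_of_ne_zero hψ)
        rcases hcd ψ with h | h
        · exact h
        · omega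
    exact (mem_irrKer ψ x).mp (Cfsg.Agent.ThompsonDeg.commutator_le_irrKer ψ
      (Cfsg.Agent.ThompsonDeg.one_of_charDegree hlin) hx)
  rw [hπapp x, hπapp 1]
  refine Finset.sum_congr rfl fun ψ _ => ?_
  by_cases hψ : a ψ = 0
  · rw [hψ]; simp
  · rw [hconst ψ hψ]

/-- If `cd(G) ⊆ {1, m}`, a normal subgroup of order prime to `m` is abelian. -/
theorem comm_of_coprime_normal [Finite G] (m : ℕ)
    (hcd : ∀ χ : IrrCharacter G, charDegree χ.1 = 1 ∨ charDegree χ.1 = m)
    (N : Subgroup G) [N.Normal] (hcop : Nat.Coprime (Nat.card N) m) :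
    ∀ a ∈ N, ∀ b ∈ N, a * b = b * a := by
  classical
  haveI := Fintype.ofFinite G
  haveI : Fintype N := Fintype.ofFinite N
  have hlin : ∀ θ : IrrCharacter N, charDegree θ.1 = 1 := by
    intro θ
    obtain ⟨χ, hχ, hne⟩ := Cfsg.Agent.ItoConv.exists_irr_over N θ.2
    obtain ⟨f, hf⟩ := Cfsg.Agent.ItoConv.degree_over N θ ⟨χ, hχ⟩ hne
    have h1 : charDegree θ.1 ∣ Nat.card N := charDegree_dvd_card θ
    have h3 : charDegree θ.1 ∣ charDegree χ := Dvd.intro_left _ hf.symm
    rcases hcd ⟨χ, hχ⟩ with h | h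
    · rw [h] at h3
      exact Nat.dvd_one.mp h3
    · rw [h] at h3
      have := Nat.dvd_gcd h1 h3
      rw [hcop.gcd_eq_one] at this
      exact Nat.dvd_one.mp this
  have hc := Cfsg.Agent.S0855.comm_of_all_linear hlin
  intro a ha b hb
  exact congrArg Subtype.val (hc ⟨a, ha⟩ ⟨b, hb⟩)

/-- An irreducible character of `T` restricting to a multiple of the linear character `c` of
`B`, with degree prime to `|B|`, gives an extension of `c` to `T`. -/
theorem exists_hom_of_scalar {T : Type u} [Group T] [Finite T] {ψ : T → ℂ}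
    (hψ : IsIrrCharacter T ψ) (B : Subgroup T) (c : B →* ℂˣ)
    (hc : ∀ b : B, ψ b = ψ 1 * ((c b : ℂˣ) : ℂ))
    (hcop : Nat.Coprime (charDegree ψ) (Nat.card B)) :
    ∃ f : T →* ℂˣ, ∀ b : B, f b = c b := by
  obtain ⟨n, ρ, hirr, hρ, hn, h1, hdeg⟩ := irr_rep ⟨ψ, hψ⟩
  change ρ.character = ψ at hρ
  change ψ 1 = (n : ℂ) at h1
  change charDegree ψ = n at hdeg
  have hn0 : (n : ℂ) ≠ 0 := by exact_mod_cast hn.ne'
  have hcpow : ∀ b : B, c b ^ Nat.card B = 1 := by
    intro b
    rw [← map_pow, pow_card_eq_one', map_one]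
  have hnorm1 : ∀ b : B, ‖((c b : ℂˣ) : ℂ)‖ = 1 := by
    intro b
    apply Complex.norm_eq_one_of_pow_eq_one (n := Nat.card B) _ Nat.card_pos.ne'
    rw [← Units.val_pow_eq_pow_val, hcpow b, Units.val_one]
  have hdet : ∀ b : B, detChar ψ (b : T) = ((c b : ℂˣ) : ℂ) ^ n := by
    intro b
    have hnorm : ‖ρ.character (b : T)‖ = (Module.finrank ℂ (Fin n → ℂ) : ℝ) := by
      rw [hρ, hc b, h1, norm_mul, hnorm1 b, mul_one]
      simp
    obtain ⟨ω, hω⟩ := (Cfsg.Agent.S0138.result ρ (b : T)).mp hnorm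
    have htr : ρ.character (b : T) = (n : ℂ) * ω := by
      rw [Representation.character, hω, map_smul, LinearMap.trace_id]
      simp [mul_comm]
    have hωc : ω = ((c b : ℂˣ) : ℂ) := by
      rw [hρ, hc b, h1] at htr
      exact (mul_left_cancel₀ hn0 htr).symm
    rw [← hρ, detChar_character ρ, hω, LinearMap.det_smul, LinearMap.det_id, mul_one, hωc]
    simp
  -- Bezout
  have hbez := Int.gcd_eq_gcd_ab (n : ℤ) (Nat.card B : ℤ)
  have hg : Int.gcd (n : ℤ) (Nat.card B : ℤ) = 1 := by
    rw [Int.gcd_natCast_natCast, ← hdeg]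
    exact hcop
  rw [hg] at hbez
  refine ⟨(zpowGroupHom (Int.gcdA (n : ℤ) (Nat.card B : ℤ))).comp (detHom ψ), fun b => ?_⟩
  have hd : detHom ψ (b : T) = c b ^ n := by
    apply Units.ext
    rw [detHom_apply, hdet b, Units.val_pow_eq_pow_val]
  rw [MonoidHom.comp_apply, zpowGroupHom_apply, hd]
  have h2 : c b = c b ^ ((n : ℤ) * Int.gcdA (n : ℤ) (Nat.card B : ℤ) +
      (Nat.card B : ℤ) * Int.gcdB (n : ℤ) (Nat.card B : ℤ)) := by
    rw [← hbez]
    simp
  conv_rhs => rw [h2]
  rw [zpow_add, zpow_mul, zpow_mul, zpow_natCast, zpow_natCast, hcpow b, one_zpow, mul_one]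

end TwoDegA

end Cfsg.Agent.H82
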