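import Mathlib
import Cfsg.Prelude.Def_Characters
import Cfsg.Agent.H82.TwoDegA
import Cfsg.Agent.H83.MinNormal
import Cfsg.Agent.Lib.CliffordCorr

/-!
# Groups with two character degrees, part B (helper82)

`G` finite with `cd(G) ⊆ {1, m}`, `A` an abelian normal Hall subgroup of order prime to `m`
which is not central.  Then the stabilizer of a non-invariant linear character of `A` is
`C_G(A)`, it is abelian, normal, of index `m`, and contains `G'`
(`exists_abelian_index`).
-/

set_option autoImplicit false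
set_option linter.style.haveILetI false

namespace Cfsg.Agent.H82

open Cfsg Cfsg.Agent.H4 Cfsg.Agent.Clifford
open scoped ComplexConjugate commutatorElement

universe u

section TwoDegB

/-- Homomorphisms to `ℂˣ` separate the points of a finite group with commuting elements. -/
theorem hom_sep {A : Type u} [Group A] [Finite A] (hcomm : ∀ a b : A, a * b = b * a)
    {a : A} (ha : a ≠ 1) : ∃ f : A →* ℂˣ, f a ≠ 1 := by
  letI : CommGroup A := { (inferInstance : Group A) with mul_comm := hcomm }
  exact CommGroup.exists_apply_ne_one_of_hasEnoughRootsOfUnity A ℂ ha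

variable {G : Type u} [Group G] (A : Subgroup G) [hA : A.Normal]

/-- The function on `A` attached to a homomorphism `A →* ℂˣ`. -/
def homFun (lam : A →* ℂˣ) : A → ℂ := fun a => ((lam a : ℂˣ) : ℂ)

omit hA in
theorem homFun_irr (lam : A →* ℂˣ) : IsIrrCharacter A (homFun A lam) := (linChar lam).2

/-- The stabilizer of a linear character of the normal subgroup `A`. -/
def stab (lam : A →* ℂˣ) : Subgroup G := Clifford.inertia A (homFun A lam)

theorem mem_stab {lam : A →* ℂˣ} {g : G} :
    g ∈ stab A lam ↔ ∀ n : A, lam ⟨g * n * g⁻¹, hA.conj_mem (n : G) n.2 g⟩ = lam n := by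
  unfold stab
  rw [mem_inertia_iff]
  constructor
  · intro h n
    exact Units.ext (h n)
  · intro h n
    show ((lam _ : ℂˣ) : ℂ) = ((lam n : ℂˣ) : ℂ)
    rw [h n]

theorem le_stab (lam : A →* ℂˣ) : A ≤ stab A lam :=
  le_inertia A (isClassFunction_of_isCharacter (isCharacter_of_isIrrCharacter (homFun_irr A lam)))

/-- A linear character of `A` extends to its stabilizer. -/
theorem exists_ext_stab [Finite G] (m : ℕ)
    (hcd : ∀ χ : IrrCharacter G, charDegree χ.1 = 1 ∨ charDegree χ.1 = m)
    (hcop : Nat.Coprime (Nat.card A) m) (lam : A →* ℂˣ) :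
    ∃ f : stab A lam →* ℂˣ, ∀ a : A, f ⟨a, le_stab A lam a.2⟩ = lam a := by
  classical
  haveI := Fintype.ofFinite G
  haveI : Fintype A := Fintype.ofFinite A
  haveI : Fintype (stab A lam) := Fintype.ofFinite _
  have hθ := homFun_irr A lam
  have hAT := le_stab A lam
  obtain ⟨χ, hχ, hne⟩ := Cfsg.Agent.ItoConv.exists_irr_over A hθ
  obtain ⟨ψ, hψ, hind, hmult⟩ := clifford_corr_surj (T := stab A lam) hθ hAT rfl hχ hne
  have hne' : classInner (fun n : A => ψ ⟨n, hAT n.2⟩) (homFun A lam) ≠ 0 := by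
    rw [hmult]; exact hne
  have hres := res_eq_smul_of_le_inertia (T := stab A lam) hθ hAT le_rfl hψ hne'
  set k := classInner (fun n : A => ψ ⟨n, hAT n.2⟩) (homFun A lam) with hk
  have hval : ∀ n : A, ψ ⟨n, hAT n.2⟩ = k * ((lam n : ℂˣ) : ℂ) := fun n => congrFun hres n
  have hk1 : ψ 1 = k := by
    have := hval 1
    rw [map_one, Units.val_one, mul_one] at this
    rw [← this]; rfl
  have hdvd : charDegree ψ ∣ charDegree χ := by
    have h1 : χ 1 = ((stab A lam).index : ℂ) * ψ 1 := by rw [← hind, indFun_one_eq]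
    have h2 : χ 1 = (charDegree χ : ℂ) := irr_one_eq_charDegree ⟨χ, hχ⟩
    have h3 : ψ 1 = (charDegree ψ : ℂ) := irr_one_eq_charDegree ⟨ψ, hψ⟩
    have h5 : charDegree χ = (stab A lam).index * charDegree ψ := by
      have h4 : ((charDegree χ : ℕ) : ℂ) = (((stab A lam).index * charDegree ψ : ℕ) : ℂ) := by
        push_cast; rw [← h2, ← h3]; exact h1
      exact_mod_cast h4
    exact Dvd.intro_left _ h5.symm
  have hcopψ : Nat.Coprime (charDegree ψ) (Nat.card (A.subgroupOf (stab A lam))) := by
    have hcard : Nat.card (A.subgroupOf (stab A lam)) = Nat.card A :=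
      Nat.card_congr (Subgroup.subgroupOfEquivOfLe hAT).toEquiv
    rw [hcard]
    rcases hcd ⟨χ, hχ⟩ with h | h
    · have h' : charDegree χ = 1 := h
      rw [h'] at hdvd; rw [Nat.dvd_one.mp hdvd]; exact Nat.coprime_one_left _
    · have h' : charDegree χ = m := h
      rw [h'] at hdvd
      exact (Nat.Coprime.coprime_dvd_right hdvd hcop).symm
  obtain ⟨f, hf⟩ := exists_hom_of_scalar hψ (A.subgroupOf (stab A lam))
    (lam.comp (Subgroup.subgroupOfEquivOfLe hAT).toMonoidHom) (by
      intro b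
      have := hval ⟨(b : stab A lam), Subgroup.mem_subgroupOf.mp b.2⟩
      rw [hk1]
      exact this) hcopψ
  refine ⟨f, fun a => ?_⟩
  have := hf ⟨⟨a, hAT a.2⟩, Subgroup.mem_subgroupOf.mpr a.2⟩
  rw [this]
  rfl

/-- For a non-invariant linear character of `A`, the stabilizer has index `m` and is abelian
modulo `A`. -/
theorem stab_index_and_quot [Finite G] (m : ℕ)
    (hcd : ∀ χ : IrrCharacter G, charDegree χ.1 = 1 ∨ charDegree χ.1 = m)
    (hcop : Nat.Coprime (Nat.card A) m) (lam : A →* ℂˣ) (hne : stab A lam ≠ ⊤) :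
    (stab A lam).index = m ∧
      ∀ t ∈ stab A lam, ∀ t' ∈ stab A lam, t * t' * t⁻¹ * t'⁻¹ ∈ A := by
  classical
  haveI := Fintype.ofFinite G
  haveI : Fintype A := Fintype.ofFinite A
  haveI : Fintype (stab A lam) := Fintype.ofFinite _
  have hθ := homFun_irr A lam
  have hAT : A ≤ stab A lam := le_stab A lam
  obtain ⟨f, hf⟩ := exists_ext_stab A m hcd hcop lam
  haveI : (A.subgroupOf (stab A lam)).Normal := Subgroup.normal_subgroupOf
  have key : ∀ β : IrrCharacter (stab A lam ⧸ A.subgroupOf (stab A lam)),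
      (stab A lam).index * charDegree β.1 = 1 ∨ (stab A lam).index * charDegree β.1 = m := by
    intro β
    set ψ : IrrCharacter (stab A lam) :=
      ⟨fun t => (linChar f).1 t * (inflate (A.subgroupOf (stab A lam)) β).1 t,
        Cfsg.Agent.H83.isIrrCharacter_linear_mul (linChar f) (inflate _ β)
          (linChar_one f)⟩ with hψ
    have hval : ∀ n : A, ψ.1 ⟨n, hAT n.2⟩ = β.1 1 * ((lam n : ℂˣ) : ℂ) := by
      intro n
      show (linChar f).1 ⟨n, hAT n.2⟩ *
        (inflate (A.subgroupOf (stab A lam)) β).1 ⟨n, hAT n.2⟩ = _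
      rw [linChar_apply, hf n, inflate_apply]
      have : (QuotientGroup.mk (⟨n, hAT n.2⟩ : stab A lam) :
          stab A lam ⧸ A.subgroupOf (stab A lam)) = 1 := by
        rw [QuotientGroup.eq_one_iff]; exact Subgroup.mem_subgroupOf.mpr n.2
      rw [this, mul_comm]
    have hinner : classInner (fun n : A => ψ.1 ⟨n, hAT n.2⟩) (homFun A lam) = β.1 1 := by
      have e : (fun n : A => ψ.1 ⟨n, hAT n.2⟩) = β.1 1 • homFun A lam := by
        funext n; rw [hval n]; rfl
      rw [e, classInner_smul_left]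
      have := irr_inner_self (⟨homFun A lam, hθ⟩ : IrrCharacter A)
      rw [this, mul_one]
    have hirr := (clifford_corr_irr (T := stab A lam) hθ hAT rfl ψ.2
      (by rw [hinner]; exact irr_one_ne_zero β)).1
    have hdeg : charDegree (indFun (stab A lam) ψ.1) = (stab A lam).index * charDegree β.1 := by
      have h1 : indFun (stab A lam) ψ.1 1 = ((stab A lam).index : ℂ) * ψ.1 1 :=
        indFun_one_eq (stab A lam) ψ.1
      have h2 : ψ.1 1 = β.1 1 := by
        have := hval 1
        rw [map_one, Units.val_one, mul_one] at this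
        rw [← this]; rfl
      have h3 : indFun (stab A lam) ψ.1 1 = (charDegree (indFun (stab A lam) ψ.1) : ℂ) :=
        irr_one_eq_charDegree (⟨indFun (stab A lam) ψ.1, hirr⟩ : IrrCharacter G)
      have h4 := irr_one_eq_charDegree β
      have h5 : ((charDegree (indFun (stab A lam) ψ.1) : ℕ) : ℂ) =
          (((stab A lam).index * charDegree β.1 : ℕ) : ℂ) := by
        push_cast
        rw [← h4, ← h2, ← h1]; exact h3.symm
      exact_mod_cast h5
    have := hcd ⟨indFun (stab A lam) ψ.1, hirr⟩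
    rw [← hdeg]; exact this
  have hidx1 : (stab A lam).index ≠ 1 := fun h => hne (Subgroup.index_eq_one.mp h)
  have hidx : (stab A lam).index = m := by
    have := key (trivChar _)
    rw [charDegree_trivChar, mul_one] at this
    rcases this with h | h
    · exact absurd h hidx1
    · exact h
  refine ⟨hidx, ?_⟩
  have hlin : ∀ β : IrrCharacter (stab A lam ⧸ A.subgroupOf (stab A lam)),
      charDegree β.1 = 1 := by
    intro β
    rcases key β with h | h
    · exact absurd (Nat.eq_one_of_mul_eq_one_right h) hidx1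
    · rw [hidx] at h
      have hm0 : 0 < m := by
        rw [← hidx]; exact Nat.pos_of_ne_zero Subgroup.index_ne_zero_of_finite
      exact Nat.eq_of_mul_eq_mul_left hm0 (by rw [h, mul_one])
  have hc := Cfsg.Agent.S0855.comm_of_all_linear hlin
  intro t ht t' ht'
  have h1 := hc (QuotientGroup.mk (⟨t, ht⟩ : stab A lam)) (QuotientGroup.mk (⟨t', ht'⟩ : stab A lam))
  have h2 : (QuotientGroup.mk ((⟨t, ht⟩ : stab A lam) * ⟨t', ht'⟩ * (⟨t, ht⟩ : stab A lam)⁻¹ *
      (⟨t', ht'⟩ : stab A lam)⁻¹) : stab A lam ⧸ A.subgroupOf (stab A lam)) = 1 := by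
    rw [QuotientGroup.mk_mul, QuotientGroup.mk_mul, QuotientGroup.mk_mul, QuotientGroup.mk_inv,
      QuotientGroup.mk_inv, h1]
    group
  rw [QuotientGroup.eq_one_iff] at h2
  exact Subgroup.mem_subgroupOf.mp h2

theorem commutator_le_stab [Finite G] (m : ℕ)
    (hcd : ∀ χ : IrrCharacter G, charDegree χ.1 = 1 ∨ charDegree χ.1 = m)
    (hcop : Nat.Coprime (Nat.card A) m) (lam : A →* ℂˣ) : commutator G ≤ stab A lam := by
  by_cases h : stab A lam = ⊤
  · rw [h]; exact le_top
  · exact taketa_le m hcd _ (stab_index_and_quot A m hcd hcop lam h).1.le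

/-- `G'` centralizes `A`. -/
theorem commutator_centralizes [Finite G] (m : ℕ)
    (hcd : ∀ χ : IrrCharacter G, charDegree χ.1 = 1 ∨ charDegree χ.1 = m)
    (hcop : Nat.Coprime (Nat.card A) m) (hab : ∀ a ∈ A, ∀ b ∈ A, a * b = b * a) :
    ∀ x ∈ commutator G, ∀ a ∈ A, x * a = a * x := by
  intro x hx a ha
  by_contra hne
  have hy : x * a * x⁻¹ * a⁻¹ ∈ A := A.mul_mem (hA.conj_mem a ha x) (A.inv_mem ha)
  have hy1 : (⟨x * a * x⁻¹ * a⁻¹, hy⟩ : A) ≠ 1 := by
    intro h
    have h' : x * a * x⁻¹ * a⁻¹ = 1 := congrArg Subtype.val h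
    apply hne
    calc x * a = (x * a * x⁻¹ * a⁻¹) * (a * x) := by group
      _ = a * x := by rw [h', one_mul]
  obtain ⟨lam, hlam⟩ := hom_sep (fun u v : A => Subtype.ext (hab u u.2 v v.2)) hy1
  have hxs := (mem_stab A).mp (commutator_le_stab A m hcd hcop lam hx) ⟨a, ha⟩
  apply hlam
  have e : (⟨x * a * x⁻¹ * a⁻¹, hy⟩ : A) =
      ⟨x * a * x⁻¹, hA.conj_mem a ha x⟩ * (⟨a, ha⟩ : A)⁻¹ := Subtype.ext rfl
  rw [e, map_mul, map_inv, hxs, mul_inv_cancel]

end TwoDegB

end Cfsg.Agent.H82
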