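import Mathlib
import Cfsg.Agent.H1.BTDefs
import Cfsg.Agent.H21.BRSplit
import Cfsg.Agent.H16.BRCol
import Cfsg.Agent.H4.Chars
import Cfsg.Agent.H99.AltSq

/-!
# S0997-B, piece ADAMS (helper82)

The Adams operation identity `θ₁(g²) = 1 + θ₁(τ) θ₁(g) + R(g) + Σ_{X⁺} (χ(τ)/2) χ(g)`.
-/

set_option autoImplicit false

namespace Cfsg.Agent.H82.BT

open Cfsg Cfsg.Agent.H21.BR Cfsg.Agent.H1.BT
open scoped ComplexConjugate

universe u

/-- Splitting a multiplicity-free sum of irreducible characters into two characters. -/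
theorem mf_split {G : Type u} [Group G] [Fintype G] (T : Finset (IrrCharacter G))
    (Ξ₁ Ξ₂ : G → ℂ) (h1 : IsCharacter G Ξ₁) (h2 : IsCharacter G Ξ₂)
    (hsum : ∀ g, Ξ₁ g + Ξ₂ g = ∑ ψ ∈ T, (ψ : G → ℂ) g) :
    (∀ ψ ∈ T, (classInner Ξ₁ (ψ : G → ℂ) = 1 ∧ classInner Ξ₂ (ψ : G → ℂ) = 0) ∨
        (classInner Ξ₁ (ψ : G → ℂ) = 0 ∧ classInner Ξ₂ (ψ : G → ℂ) = 1)) ∧
      ∀ g, Ξ₁ g = ∑ ψ ∈ T, classInner Ξ₁ (ψ : G → ℂ) * (ψ : G → ℂ) g := by
  classical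
  have hkey : ∀ ψ : IrrCharacter G,
      classInner Ξ₁ (ψ : G → ℂ) + classInner Ξ₂ (ψ : G → ℂ) = if ψ ∈ T then 1 else 0 := by
    intro ψ
    rw [← Cfsg.Agent.H4.classInner_add_left]
    have h3 : Ξ₁ + Ξ₂ = ∑ ψ' ∈ T, (ψ' : G → ℂ) := by
      funext g
      rw [Pi.add_apply, hsum, Finset.sum_apply]
    rw [h3, Cfsg.Agent.H4.classInner_sum_left]
    simp only [Cfsg.Agent.H4.irr_inner]
    rw [Finset.sum_ite_eq']
  have hnat : ∀ ψ : IrrCharacter G, ∃ n m : ℕ,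
      classInner Ξ₁ (ψ : G → ℂ) = n ∧ classInner Ξ₂ (ψ : G → ℂ) = m := by
    intro ψ
    obtain ⟨n, hn⟩ := Cfsg.Agent.H4.classInner_isCharacter_nat h1
      (Cfsg.Agent.H4.isCharacter_of_isIrrCharacter ψ.2)
    obtain ⟨m, hm⟩ := Cfsg.Agent.H4.classInner_isCharacter_nat h2
      (Cfsg.Agent.H4.isCharacter_of_isIrrCharacter ψ.2)
    exact ⟨n, m, hn, hm⟩
  have hout : ∀ ψ : IrrCharacter G, ψ ∉ T → classInner Ξ₁ (ψ : G → ℂ) = 0 := by
    intro ψ hψ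
    obtain ⟨n, m, hn, hm⟩ := hnat ψ
    have h3 := hkey ψ
    rw [if_neg hψ, hn, hm] at h3
    have h4 : n + m = 0 := by exact_mod_cast h3
    have h5 : n = 0 := by omega
    rw [hn, h5, Nat.cast_zero]
  refine ⟨?_, ?_⟩
  · intro ψ hψ
    obtain ⟨n, m, hn, hm⟩ := hnat ψ
    have h3 := hkey ψ
    rw [if_pos hψ, hn, hm] at h3
    have h4 : n + m = 1 := by exact_mod_cast h3
    rw [hn, hm]
    rcases Nat.eq_zero_or_pos n with h5 | h5
    · right
      have h6 : m = 1 := by omega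
      rw [h5, h6]
      simp
    · left
      have h6 : n = 1 := by omega
      have h7 : m = 0 := by omega
      rw [h6, h7]
      simp
  · intro g
    letI := Cfsg.Agent.H4.fintypeIrr G
    have h3 := Cfsg.Agent.H4.classFunction_eq_finsum
      (Cfsg.Agent.H4.isClassFunction_of_isCharacter h1)
    have h4 := congrFun h3 g
    rw [Cfsg.Agent.H4.finsum_irr_eq_sum, Finset.sum_apply] at h4
    have h5 : ∑ ψ ∈ T, classInner Ξ₁ (ψ : G → ℂ) * (ψ : G → ℂ) g =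
        ∑ ψ : IrrCharacter G, classInner Ξ₁ (ψ : G → ℂ) * (ψ : G → ℂ) g := by
      apply Finset.sum_subset (Finset.subset_univ T)
      intro ψ _ hψ
      rw [hout ψ hψ, zero_mul]
    rw [h5, h4]
    rfl

/-- Squaring permutes a subgroup of odd prime order. -/
theorem sum_sq_P {G : Type u} [Group G] (p : ℕ) (hp : p.Prime) (hp2 : p ≠ 2) (P : Subgroup G)
    (hP : Nat.card P = p) (f : G → ℂ) :
    ∑ᶠ y : ↥P, f ((y : G) * (y : G)) = ∑ᶠ y : ↥P, f (y : G) := by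
  classical
  haveI : Finite P := Nat.finite_of_card_ne_zero (by rw [hP]; exact hp.ne_zero)
  haveI : Fintype P := Fintype.ofFinite P
  have hcop : (Nat.card P).Coprime 2 := by
    rw [hP]
    exact (Nat.coprime_primes hp Nat.prime_two).mpr hp2
  rw [finsum_eq_sum_of_fintype, finsum_eq_sum_of_fintype]
  refine Fintype.sum_equiv (powCoprime hcop) _ _ ?_
  intro y
  show f ((y : G) * (y : G)) = f (((y ^ 2 : P)) : G)
  rw [Subgroup.coe_pow, pow_two]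

/-- **S0997-B, piece ADAMS.** -/
theorem adams (hD : StDih.{u}) (hS : StSym.{u}) : StAdams.{u} := by
  intro G _ _ p e b P X Y δ τ x θ₁ θ₂ R h hV hSP hSt hDg hR hT g
  classical
  haveI : Fintype G := Fintype.ofFinite G
  have hc := h.ctx
  have hp := hc.hp
  have hB := hc.hB0
  have hpC : (p : ℂ) ≠ 0 := Nat.cast_ne_zero.mpr hp.ne_zero
  have hpe : (p : ℂ) = 2 * (e : ℂ) + 1 := by
    have h1 := h.ht
    rw [← h1]
    push_cast
    ring
  have hθ₁Y : θ₁ ∈ Y := (h.hY θ₁).mpr (Or.inl rfl)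
  have hθ₂Y : θ₂ ∈ Y := (h.hY θ₂).mpr (Or.inr rfl)
  have hττ : τ * τ = 1 := by
    have h1 := pow_orderOf_eq_one τ
    rw [hc.hτ, pow_two] at h1
    exact h1
  have hep : e ≤ p := by
    have h1 := h.ht
    omega
  have hdeg₁ : (θ₁ : G → ℂ) 1 = (p : ℂ) - (e : ℂ) := by
    rw [Cfsg.Agent.H16.BR.irr_one_cast, hc.degY θ₁ hθ₁Y, Nat.cast_sub hep]
  have hdeg₂ : (θ₂ : G → ℂ) 1 = (p : ℂ) - (e : ℂ) := by
    rw [Cfsg.Agent.H16.BR.irr_one_cast, hc.degY θ₂ hθ₂Y, Nat.cast_sub hep]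
  have hdegR : (R : G → ℂ) 1 = (p : ℂ) := by
    rw [Cfsg.Agent.H16.BR.irr_one_cast, hR.2.2.1]
  -- the finset of constituents of `θ₁ ^ 2`
  have hn1 : one G ∉ insert θ₁ (insert R (plusSet X δ)) := by
    simp only [Finset.mem_insert, mem_plusSet, not_or]
    refine ⟨?_, ?_, ?_⟩
    · intro h1
      have h2 := Finset.disjoint_left.mp hB.disj hB.one_mem
      rw [h1] at h2
      exact h2 hθ₁Y
    · intro h1
      exact hR.1 (h1 ▸ hB.one_mem)
    · intro h1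
      exact h1.2.1 rfl
  have hn2 : θ₁ ∉ insert R (plusSet X δ) := by
    simp only [Finset.mem_insert, mem_plusSet, not_or]
    refine ⟨?_, ?_⟩
    · intro h1
      exact hR.2.1 (h1 ▸ hθ₁Y)
    · intro h1
      exact Finset.disjoint_left.mp hB.disj h1.1 hθ₁Y
  have hn3 : R ∉ plusSet X δ := by
    rw [mem_plusSet]
    intro h1
    exact hR.1 h1.1
  obtain ⟨T, hTdef⟩ : ∃ T : Finset (IrrCharacter G),
      T = insert (one G) (insert θ₁ (insert R (plusSet X δ))) := ⟨_, rfl⟩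
  have hTsum : ∀ F : IrrCharacter G → ℂ,
      ∑ ψ ∈ T, F ψ = F (one G) + (F θ₁ + (F R + ∑ χ ∈ plusSet X δ, F χ)) := by
    intro F
    rw [hTdef, Finset.sum_insert hn1, Finset.sum_insert hn2, Finset.sum_insert hn3]
  have hone : ∀ g' : G, (one G : G → ℂ) g' = 1 := fun g' => rfl
  -- `θ₁ ^ 2 = 1 + θ₁ + R + Σ_plus χ`
  have hQ : ∀ g' : G, (θ₁ : G → ℂ) g' ^ 2 = ∑ ψ ∈ T, (ψ : G → ℂ) g' := by
    intro g'
    rw [hTsum (fun ψ => (ψ : G → ℂ) g'), hone]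
    have h1 := hSt g'
    have h2 := hR.2.2.2 g'
    have h3 := sum_X_split hB (fun χ => (δ χ : ℂ) * (χ : G → ℂ) g')
    have h4 : ∑ χ ∈ plusSet X δ, (δ χ : ℂ) * (χ : G → ℂ) g' =
        ∑ χ ∈ plusSet X δ, (χ : G → ℂ) g' := by
      refine Finset.sum_congr rfl fun χ hχ => ?_
      rw [(mem_plusSet.mp hχ).2.2]
      simp
    have h5 : ∑ χ ∈ minusSet X δ, (δ χ : ℂ) * (χ : G → ℂ) g' =
        - ∑ χ ∈ minusSet X δ, (χ : G → ℂ) g' := by
      rw [← Finset.sum_neg_distrib]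
      refine Finset.sum_congr rfl fun χ hχ => ?_
      rw [(mem_minusSet.mp hχ).2]
      simp
    rw [h4, h5, hB.δ_one, hone] at h3
    rw [h3] at h1
    push_cast at h1
    linear_combination h1 + h2
  -- the alternating and symmetric squares
  obtain ⟨A₂, hA₂def⟩ : ∃ A₂ : G → ℂ,
      A₂ = fun g' => ((θ₁ : G → ℂ) g' ^ 2 - (θ₁ : G → ℂ) (g' * g')) / 2 := ⟨_, rfl⟩
  obtain ⟨S₂, hS₂def⟩ : ∃ S₂ : G → ℂ,
      S₂ = fun g' => ((θ₁ : G → ℂ) g' ^ 2 + (θ₁ : G → ℂ) (g' * g')) / 2 := ⟨_, rfl⟩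
  have hθ₁c : IsCharacter G (θ₁ : G → ℂ) := Cfsg.Agent.H4.isCharacter_of_isIrrCharacter θ₁.2
  have hA₂ : IsCharacter G A₂ := by
    rw [hA₂def]
    exact Cfsg.Agent.H99.AltSq.altSq_isCharacter _ hθ₁c
  have hS₂ : IsCharacter G S₂ := by
    rw [hS₂def]
    exact hS _ hθ₁c
  have hAS : ∀ g' : G, A₂ g' + S₂ g' = ∑ ψ ∈ T, (ψ : G → ℂ) g' := by
    intro g'
    rw [← hQ g', hA₂def, hS₂def]
    ring
  obtain ⟨hcase, hAexp⟩ := mf_split T A₂ S₂ hA₂ hS₂ hAS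
  -- sums over `P`
  haveI : Finite (P : Subgroup G) := inferInstance
  haveI : Fintype (P : Subgroup G) := Fintype.ofFinite _
  have hfs : ∀ f : G → ℂ, ∑ᶠ y : ↥(P : Subgroup G), f (y : G) =
      ∑ y : ↥(P : Subgroup G), f (y : G) := fun f => finsum_eq_sum_of_fintype _
  have hs1 : ∑ y : ↥(P : Subgroup G), (θ₁ : G → ℂ) (y : G) = (p : ℂ) := by
    rw [← hfs]
    exact hSP.2.1
  have hs2 : ∑ y : ↥(P : Subgroup G), (θ₁ : G → ℂ) ((y : G) * (y : G)) = (p : ℂ) := by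
    have h1 := sum_sq_P p hp hc.hp2 (P : Subgroup G) hc.hP (θ₁ : G → ℂ)
    rw [hfs (fun z => (θ₁ : G → ℂ) (z * z)), hfs (θ₁ : G → ℂ), hs1] at h1
    exact h1
  have hs3 : ∑ y : ↥(P : Subgroup G), (θ₁ : G → ℂ) (y : G) * (θ₂ : G → ℂ) (y : G) = (p : ℂ) := by
    have h1 := psum_const (P : Subgroup G) p hp.pos hc.hP
      (fun y => (θ₁ : G → ℂ) y * (θ₂ : G → ℂ) y) (-(e : ℂ) / 2)
      (fun y hy hy1 => (hV y hy hy1).2.1)
    rw [hfs (fun y => (θ₁ : G → ℂ) y * (θ₂ : G → ℂ) y)] at h1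
    rw [h1, hdeg₁, hdeg₂, hpe]
    ring
  have hs4 : ∑ y : ↥(P : Subgroup G), (θ₁ : G → ℂ) (y : G) ^ 2 = (p : ℂ) * (e : ℂ) + (p : ℂ) := by
    have h1 := hSP.1
    rw [hfs (fun y => ((θ₁ : G → ℂ) y - (θ₂ : G → ℂ) y) * (θ₁ : G → ℂ) y)] at h1
    rw [← h1, ← hs3, ← Finset.sum_add_distrib]
    refine Finset.sum_congr rfl fun y _ => ?_
    ring
  have hDA : (∑ᶠ y : ↥(P : Subgroup G), A₂ (y : G)) + (p : ℂ) * A₂ τ = 0 := by
    rw [hfs, hA₂def]
    beta_reduce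
    rw [← Finset.sum_div, Finset.sum_sub_distrib, hs4, hs2, hττ, hT.1, hdeg₁, hpe]
    ring
  have hDS : (∑ᶠ y : ↥(P : Subgroup G), S₂ (y : G)) - (p : ℂ) * S₂ τ = 0 := by
    rw [hfs, hS₂def]
    beta_reduce
    rw [← Finset.sum_div, Finset.sum_add_distrib, hs4, hs2, hττ, hT.1, hdeg₁, hpe]
    ring
  -- the key fact on constituents
  have hkey : ∀ ψ ∈ T, ∀ k : ℂ, ∑ᶠ y : ↥(P : Subgroup G), (ψ : G → ℂ) (y : G) = (p : ℂ) * k →
      (1 - 2 * classInner A₂ (ψ : G → ℂ)) * k = (ψ : G → ℂ) τ := by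
    intro ψ hψ k hk
    rcases hcase ψ hψ with ⟨ha, -⟩ | ⟨ha, hs⟩
    · have h1 := (hD p hp hc.hp2 (P : Subgroup G) hc.hP τ hc.hτ hc.hinv A₂ hA₂ ψ
        (by rw [ha]; exact one_ne_zero)).1 hDA
      rw [hk] at h1
      have h2 : k + (ψ : G → ℂ) τ = 0 := by
        apply mul_left_cancel₀ hpC
        rw [mul_zero, ← h1]
        ring
      rw [ha]
      linear_combination -h2
    · have h1 := (hD p hp hc.hp2 (P : Subgroup G) hc.hP τ hc.hτ hc.hinv S₂ hS₂ ψ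
        (by rw [hs]; exact one_ne_zero)).2 hDS
      rw [hk] at h1
      have h2 : k - (ψ : G → ℂ) τ = 0 := by
        apply mul_left_cancel₀ hpC
        rw [mul_zero, ← h1]
        ring
      rw [ha]
      linear_combination h2
  have hm1 : one G ∈ T := by rw [hTdef]; exact Finset.mem_insert_self _ _
  have hm2 : θ₁ ∈ T := by
    rw [hTdef]
    exact Finset.mem_insert_of_mem (Finset.mem_insert_self _ _)
  have hm3 : R ∈ T := by
    rw [hTdef]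
    exact Finset.mem_insert_of_mem (Finset.mem_insert_of_mem (Finset.mem_insert_self _ _))
  have hm4 : ∀ χ ∈ plusSet X δ, χ ∈ T := by
    intro χ hχ
    rw [hTdef]
    exact Finset.mem_insert_of_mem (Finset.mem_insert_of_mem (Finset.mem_insert_of_mem hχ))
  -- the four kinds of constituents
  have hk1 : 1 - 2 * classInner A₂ (one G : G → ℂ) = 1 := by
    have h1 := hkey (one G) hm1 1 (by
      rw [psum_const (P : Subgroup G) p hp.pos hc.hP (one G : G → ℂ) 1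
        (fun y _ _ => hone y), hone]
      ring)
    rw [hone, mul_one] at h1
    exact h1
  have hk2 : 1 - 2 * classInner A₂ (θ₁ : G → ℂ) = (θ₁ : G → ℂ) τ := by
    have h1 := hkey θ₁ hm2 1 (by rw [hSP.2.1, mul_one])
    rw [mul_one] at h1
    exact h1
  have hk3 : 1 - 2 * classInner A₂ (R : G → ℂ) = 1 := by
    have hR0 : ∀ y ∈ (P : Subgroup G), y ≠ 1 → (R : G → ℂ) y = 0 := by
      intro y hy hy1
      have h1 := hR.2.2.2 y
      rw [(hV y hy hy1).2.1] at h1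
      have h2 : ∑ χ ∈ minusSet X δ, (χ : G → ℂ) y = ∑ χ ∈ minusSet X δ, (-1 : ℂ) := by
        refine Finset.sum_congr rfl fun χ hχ => ?_
        rw [hB.val_X χ (mem_minusSet.mp hχ).1 y hy hy1, (mem_minusSet.mp hχ).2]
        simp
      rw [Finset.sum_const, nsmul_eq_mul] at h2
      have h3 : (2 : ℂ) * ((minusSet X δ).card : ℂ) = (e : ℂ) := by
        exact_mod_cast hDg.2.2.1
      rw [h2] at h1
      linear_combination -h1 + h3 / 2
    have h1 := hkey R hm3 1 (by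
      rw [psum_const (P : Subgroup G) p hp.pos hc.hP (R : G → ℂ) 0 hR0, hdegR]
      ring)
    rw [hT.2.1, mul_one] at h1
    exact h1
  have hk4 : ∀ χ ∈ plusSet X δ, 1 - 2 * classInner A₂ (χ : G → ℂ) = (χ : G → ℂ) τ / 2 := by
    intro χ hχ
    have hχ' := mem_plusSet.mp hχ
    have h1 := hkey χ (hm4 χ hχ) 2 (by
      rw [psum_const (P : Subgroup G) p hp.pos hc.hP (χ : G → ℂ) 1
        (fun y hy hy1 => by
          rw [hB.val_X χ hχ'.1 y hy hy1, hχ'.2.2]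
          simp), Cfsg.Agent.H16.BR.irr_one_cast, hDg.2.1 χ hχ]
      push_cast
      ring)
    rw [← h1]
    ring
  -- conclusion
  have h1 : (θ₁ : G → ℂ) (g * g) = (θ₁ : G → ℂ) g ^ 2 - 2 * A₂ g := by
    rw [hA₂def]
    ring
  rw [h1, hQ g, hAexp g, hTsum (fun ψ => (ψ : G → ℂ) g),
    hTsum (fun ψ => classInner A₂ (ψ : G → ℂ) * (ψ : G → ℂ) g), hone]
  have h2 : ∑ χ ∈ plusSet X δ, ((χ : G → ℂ) τ / 2) * (χ : G → ℂ) g =
      ∑ χ ∈ plusSet X δ, (χ : G → ℂ) g -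
        2 * ∑ χ ∈ plusSet X δ, classInner A₂ (χ : G → ℂ) * (χ : G → ℂ) g := by
    rw [Finset.mul_sum, ← Finset.sum_sub_distrib]
    refine Finset.sum_congr rfl fun χ hχ => ?_
    rw [← hk4 χ hχ]
    ring
  rw [h2, ← hk2]
  linear_combination hk1 + (R : G → ℂ) g * hk3

example : StDih.{u} → StSym.{u} → StAdams.{u} := adams

end Cfsg.Agent.H82.BT
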