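import Mathlib
import Cfsg.Agent.H1.BTDefs
import Cfsg.Agent.H21.BRSplit
import Cfsg.Agent.H16.BRCol

/-!
# S0997-B, piece PSI2 (helper82)

For `t = 2`: `Psi τ u x = (p - R u) / (p - e)` for every involution `u`, hence `PsiFacts`.
-/

set_option autoImplicit false

namespace Cfsg.Agent.H82.BT

open Cfsg Cfsg.Agent.H21.BR Cfsg.Agent.H1.BT
open scoped ComplexConjugate

universe u

/-- The class-multiplication character sum at an involution `u`, for `t = 2`. -/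
theorem psi_formula {G : Type u} [Group G] [Finite G] (p e b : ℕ)
    (P : Sylow p G) (X Y : Finset (IrrCharacter G)) (δ : IrrCharacter G → ℤ) (τ x : G)
    (θ₁ θ₂ R : IrrCharacter G)
    (h : T2 p e b P X Y δ τ x θ₁ θ₂) (hV : ValP e P θ₁ θ₂) (hDg : Degs p e X δ)
    (hR : IsR p X Y δ θ₁ θ₂ R) (hT : TauV X δ τ θ₁ R) (hA : Adams X δ τ θ₁ R)
    (u : G) (hu : orderOf u = 2) :
    Psi τ u x = ((p : ℂ) - (R : G → ℂ) u) / ((p : ℂ) - (e : ℂ)) := by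
  classical
  have hc := h.ctx
  have hp := hc.hp
  have hB := hc.hB0
  have hpe : (p : ℂ) = 2 * (e : ℂ) + 1 := by
    have h1 := h.ht
    rw [← h1]
    push_cast
    ring
  have hne : (e : ℂ) + 1 ≠ 0 := Nat.cast_add_one_ne_zero e
  have hθ₁Y : θ₁ ∈ Y := (h.hY θ₁).mpr (Or.inl rfl)
  have hθ₂Y : θ₂ ∈ Y := (h.hY θ₂).mpr (Or.inr rfl)
  have hep : e ≤ p := by
    have h1 := h.ht
    omega
  have hdeg₁ : (θ₁ : G → ℂ) 1 = (e : ℂ) + 1 := by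
    rw [Cfsg.Agent.H16.BR.irr_one_cast, hc.degY θ₁ hθ₁Y, Nat.cast_sub hep, hpe]
    ring
  have hdeg₂ : (θ₂ : G → ℂ) 1 = (e : ℂ) + 1 := by
    rw [Cfsg.Agent.H16.BR.irr_one_cast, hc.degY θ₂ hθ₂Y, Nat.cast_sub hep, hpe]
    ring
  have huu : u * u = 1 := by
    have h1 := pow_orderOf_eq_one u
    rw [hu, pow_two] at h1
    exact h1
  have hxi : x⁻¹ ∈ (P : Subgroup G) := inv_mem hc.hx
  have hxi1 : x⁻¹ ≠ 1 := by
    intro h1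
    exact hc.hx1 (inv_eq_one.mp h1)
  have hreg : ∀ v : G, orderOf v = 2 → ¬ p ∣ orderOf v := by
    intro v hv hdvd
    rw [hv] at hdvd
    exact hc.hp2 ((Nat.prime_dvd_prime_iff_eq hp Nat.prime_two).mp hdvd)
  have hτ₂ : (θ₂ : G → ℂ) τ = (θ₁ : G → ℂ) τ :=
    hB.agree_Y θ₂ hθ₂Y θ₁ hθ₁Y τ (hreg τ hc.hτ)
  have hu₂ : (θ₂ : G → ℂ) u = (θ₁ : G → ℂ) u :=
    hB.agree_Y θ₂ hθ₂Y θ₁ hθ₁Y u (hreg u hu)
  have hone : ∀ g' : G, (one G : G → ℂ) g' = 1 := fun g' => rfl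
  obtain ⟨Z, hZ⟩ := exists_out X Y
  have hsplit := sum_split hB Z hZ (fun χ : IrrCharacter G =>
    (χ : G → ℂ) τ * (χ : G → ℂ) u * (χ : G → ℂ) x⁻¹ / (χ : G → ℂ) 1)
  have e1 : (one G : G → ℂ) τ * (one G : G → ℂ) u * (one G : G → ℂ) x⁻¹ / (one G : G → ℂ) 1
      = 1 := by
    simp only [hone]
    norm_num
  have e2 : ∑ χ ∈ plusSet X δ,
      (χ : G → ℂ) τ * (χ : G → ℂ) u * (χ : G → ℂ) x⁻¹ / (χ : G → ℂ) 1 =
      (∑ χ ∈ plusSet X δ, (χ : G → ℂ) τ * (χ : G → ℂ) u) / (2 * ((e : ℂ) + 1)) := by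
    rw [Finset.sum_div]
    refine Finset.sum_congr rfl fun χ hχ => ?_
    have hχ' := mem_plusSet.mp hχ
    rw [hB.val_X χ hχ'.1 x⁻¹ hxi hxi1, hχ'.2.2, Cfsg.Agent.H16.BR.irr_one_cast, hDg.2.1 χ hχ]
    have h1 : ((p + 1 : ℕ) : ℂ) = 2 * ((e : ℂ) + 1) := by
      push_cast
      rw [hpe]
      ring
    rw [h1]
    simp
  have e3 : ∑ χ ∈ minusSet X δ,
      (χ : G → ℂ) τ * (χ : G → ℂ) u * (χ : G → ℂ) x⁻¹ / (χ : G → ℂ) 1 = 0 := by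
    refine Finset.sum_eq_zero fun χ hχ => ?_
    rw [hT.2.2 χ hχ]
    simp
  have e4 : ∑ θ ∈ Y,
      (θ : G → ℂ) τ * (θ : G → ℂ) u * (θ : G → ℂ) x⁻¹ / (θ : G → ℂ) 1 =
      (θ₁ : G → ℂ) τ * (θ₁ : G → ℂ) u / ((e : ℂ) + 1) := by
    have hYeq : Y = {θ₁, θ₂} := by
      ext θ
      rw [h.hY θ, Finset.mem_insert, Finset.mem_singleton]
    rw [hYeq, Finset.sum_pair h.hne, hτ₂, hu₂, hdeg₁, hdeg₂, ← add_div, ← mul_add,
      (hV x⁻¹ hxi hxi1).1, mul_one]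
  have e5 : ∑ ψ ∈ Z,
      (ψ : G → ℂ) τ * (ψ : G → ℂ) u * (ψ : G → ℂ) x⁻¹ / (ψ : G → ℂ) 1 = 0 := by
    refine Finset.sum_eq_zero fun ψ hψ => ?_
    rw [hB.out_van ψ ((hZ ψ).mp hψ).1 ((hZ ψ).mp hψ).2 x⁻¹ hxi hxi1]
    simp
  have hAd := hA u
  rw [huu, hdeg₁] at hAd
  have e6 : ∑ χ ∈ plusSet X δ, (χ : G → ℂ) τ * (χ : G → ℂ) u =
      2 * ∑ χ ∈ plusSet X δ, ((χ : G → ℂ) τ / 2) * (χ : G → ℂ) u := by
    rw [Finset.mul_sum]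
    refine Finset.sum_congr rfl fun χ _ => ?_
    ring
  have hden : (p : ℂ) - (e : ℂ) = (e : ℂ) + 1 := by
    rw [hpe]
    ring
  unfold Psi
  rw [hsplit, e1, e2, e3, e4, e5, e6, hden, eq_div_iff hne]
  have h7 : ∀ S : ℂ, (2 * S) / (2 * ((e : ℂ) + 1)) * ((e : ℂ) + 1) = S := by
    intro S
    field_simp
  have h8 : (θ₁ : G → ℂ) τ * (θ₁ : G → ℂ) u / ((e : ℂ) + 1) * ((e : ℂ) + 1) =
      (θ₁ : G → ℂ) τ * (θ₁ : G → ℂ) u := by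
    field_simp
  rw [hpe]
  linear_combination h7 (∑ χ ∈ plusSet X δ, ((χ : G → ℂ) τ / 2) * (χ : G → ℂ) u) + h8 - hAd

/-- **S0997-B, piece PSI2.** -/
theorem psi2 (hK : StKer.{u}) : StPsi2.{u} := by
  intro G _ _ _ hcyc p e b P X Y δ τ x θ₁ θ₂ R h hV hDg hR hT hA
  have hc := h.ctx
  have hp := hc.hp
  have hpe : (p : ℂ) = 2 * (e : ℂ) + 1 := by
    have h1 := h.ht
    rw [← h1]
    push_cast
    ring
  have hne : (e : ℂ) + 1 ≠ 0 := Nat.cast_add_one_ne_zero e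
  have hden : (p : ℂ) - (e : ℂ) = (e : ℂ) + 1 := by
    rw [hpe]
    ring
  refine ⟨fun u hu => ?_, ?_⟩
  · rw [psi_formula p e b P X Y δ τ x θ₁ θ₂ R h hV hDg hR hT hA u hu, hden]
    apply div_ne_zero _ hne
    intro h0
    have h1 : (R : G → ℂ) u = (R : G → ℂ) 1 := by
      rw [Cfsg.Agent.H16.BR.irr_one_cast, hR.2.2.1]
      linear_combination -h0
    have h2 := hK hcyc R (by rw [hR.2.2.1]; exact hp.two_le) u h1
    rw [h2, orderOf_one] at hu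
    exact absurd hu (by norm_num)
  · rw [psi_formula p e b P X Y δ τ x θ₁ θ₂ R h hV hDg hR hT hA τ hc.hτ, hT.2.1]

example : StKer.{u} → StPsi2.{u} := psi2

end Cfsg.Agent.H82.BT
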