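import Mathlib
import Cfsg.Prelude.Def_Blocks
import Cfsg.Agent.H82.IndDeg
import Cfsg.Agent.H82.SumSq
import Cfsg.Agent.H82.Triv
import Cfsg.Agent.H82.FrobGrp
import Cfsg.Agent.H83.Gagola2

/-!
# Faithful irreducible characters of prime codegree (helper82)
-/

set_option autoImplicit false

namespace Cfsg.Agent.H82

open Cfsg.Agent.H4
open scoped ComplexConjugate

section

variable {G : Type*} [Group G] [Finite G]

/-- The degree of an irreducible character is at most the index of any abelian subgroup. -/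
theorem charDegree_le_index_of_comm (χ : Cfsg.IrrCharacter G) (A : Subgroup G)
    (hA : ∀ a ∈ A, ∀ b ∈ A, a * b = b * a) : Cfsg.charDegree χ.1 ≤ A.index := by
  classical
  have hFG : Fintype G := Fintype.ofFinite G
  have hFA : Fintype A := Fintype.ofFinite A
  letI := fintypeIrr A
  have hres : Cfsg.IsCharacter A (fun h : A => χ.1 h) :=
    isCharacter_restrict A (isCharacter_of_isIrrCharacter χ.2)
  obtain ⟨m, hm⟩ := isCharacter_iff.mp hres
  have e1 : Cfsg.charDegree χ.1 = ∑ ψ : Cfsg.IrrCharacter A, m ψ * Cfsg.charDegree ψ.1 := by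
    have e1' : χ.1 1 = ((∑ ψ : Cfsg.IrrCharacter A, m ψ * Cfsg.charDegree ψ.1 : ℕ) : ℂ) := by
      rw [← finsum_irr_one m, ← hm]
      rfl
    rw [irr_one_eq_charDegree] at e1'
    exact_mod_cast e1'
  obtain ⟨μ, hμ⟩ : ∃ μ : Cfsg.IrrCharacter A, m μ ≠ 0 := by
    by_contra hcon
    push Not at hcon
    have h0 : Cfsg.charDegree χ.1 = 0 := by
      rw [e1]
      exact Finset.sum_eq_zero (fun ψ _ => by rw [hcon ψ, zero_mul])
    have := charDegree_pos χ
    omega
  have hin : Cfsg.classInner (Cfsg.indFun A μ.1) χ.1 ≠ 0 := by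
    rw [frobenius_reciprocity A μ.1 χ.1 (irr_isClassFunction χ),
      ← classInner_conj_symm, hm, classInner_finsum_irr (fun ψ => (m ψ : ℂ)) μ]
    simpa using hμ
  obtain ⟨r, hr, -⟩ := constituent_degree (isCharacter_indFun A μ.1
    (isCharacter_of_isIrrCharacter μ.2)) χ hin
  have hlin := (Cfsg.Agent.H83.IsIrrCharacter.linear_of_comm
    (fun a b : A => Subtype.ext (hA a a.2 b b.2)) μ.2).1
  rw [indFun_one, hlin, mul_one, irr_one_eq_charDegree] at hr
  have : A.index = Cfsg.charDegree χ.1 + r := by exact_mod_cast hr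
  omega

/-- A faithful irreducible character of prime codegree `p` has degree less than `p`. -/
theorem faithful_degree_lt (χ : Cfsg.IrrCharacter G) (hfaith : ∀ g : G, χ.1 g = χ.1 1 → g = 1)
    (p : ℕ) (hp : p.Prime) (hcod : Nat.card G = p * Cfsg.charDegree χ.1) :
    Cfsg.charDegree χ.1 < p := by
  classical
  have hfinI : Finite (Cfsg.IrrCharacter G) := irr_finite G
  have hft := Fintype.ofFinite (Cfsg.IrrCharacter G)
  have hsum := sum_sq_nat G
  have hχne : χ ≠ trivChar G := by
    intro h
    have hsub : ∀ g : G, g = 1 := by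
      intro g
      apply hfaith
      rw [h, trivChar_apply, trivChar_apply]
    have hcard : Nat.card G = 1 := by
      have : Subsingleton G := ⟨fun a b => (hsub a).trans (hsub b).symm⟩
      exact Nat.card_unique
    rw [hcard] at hcod
    have : p = 1 := Nat.eq_one_of_mul_eq_one_right hcod.symm
    exact hp.one_lt.ne' this
  have hle : (Cfsg.charDegree (trivChar G).1) ^ 2 + (Cfsg.charDegree χ.1) ^ 2 ≤ Nat.card G := by
    rw [← hsum]
    calc (Cfsg.charDegree (trivChar G).1) ^ 2 + (Cfsg.charDegree χ.1) ^ 2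
        = ∑ χ' ∈ ({trivChar G, χ} : Finset (Cfsg.IrrCharacter G)),
            (Cfsg.charDegree χ'.1) ^ 2 := by rw [Finset.sum_pair hχne.symm]
      _ ≤ _ := Finset.sum_le_sum_of_subset (Finset.subset_univ _)
  rw [charDegree_trivChar, hcod] at hle
  nlinarith

/-- With a faithful irreducible character of prime codegree `p`, a subgroup of order `p` is
self-centralizing. -/
theorem mem_of_centralizes (χ : Cfsg.IrrCharacter G) (p : ℕ) (hp : p.Prime)
    (hcod : Nat.card G = p * Cfsg.charDegree χ.1) (P : Subgroup G) (hP : Nat.card P = p)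
    (c : G) (hc : ∀ x ∈ P, c * x = x * c) : c ∈ P := by
  have hPcomm : ∀ x ∈ P, ∀ y ∈ P, x * y = y * x := by
    intro x hx y hy
    by_cases hx1 : x = 1
    · rw [hx1, one_mul, mul_one]
    · exact (commute_of_prime_card hp hP hx hx1 (x := x) rfl y hy)
  have hk : ∀ x ∈ ((P : Set G) ∪ {c}), ∀ y ∈ ((P : Set G) ∪ {c}), x * y = y * x := by
    rintro x (hx | hx) y (hy | hy)
    · exact hPcomm x hx y hy
    · rw [Set.mem_singleton_iff] at hy
      rw [hy]
      exact (hc x hx).symm
    · rw [Set.mem_singleton_iff] at hx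
      rw [hx]
      exact hc y hy
    · rw [Set.mem_singleton_iff] at hx hy
      rw [hx, hy]
  have hA : ∀ a ∈ Subgroup.closure ((P : Set G) ∪ {c}),
      ∀ b ∈ Subgroup.closure ((P : Set G) ∪ {c}), a * b = b * a := by
    intro a ha b hb
    letI := Subgroup.closureCommGroupOfComm hk
    have := mul_comm (⟨a, ha⟩ : Subgroup.closure ((P : Set G) ∪ {c})) ⟨b, hb⟩
    exact congrArg Subtype.val this
  have hdeg := charDegree_le_index_of_comm χ _ hA
  have hPle : P ≤ Subgroup.closure ((P : Set G) ∪ {c}) := fun x hx =>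
    Subgroup.subset_closure (Or.inl hx)
  have hcA : c ∈ Subgroup.closure ((P : Set G) ∪ {c}) :=
    Subgroup.subset_closure (Or.inr rfl)
  have hmul := Subgroup.card_mul_index (Subgroup.closure ((P : Set G) ∪ {c}))
  have hnpos : 0 < Cfsg.charDegree χ.1 := charDegree_pos χ
  have hcardle : Nat.card (Subgroup.closure ((P : Set G) ∪ {c})) ≤ Nat.card P := by
    rw [hP]
    have h1 : Nat.card (Subgroup.closure ((P : Set G) ∪ {c})) * Cfsg.charDegree χ.1 ≤
        p * Cfsg.charDegree χ.1 := by
      rw [← hcod, ← hmul]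
      exact Nat.mul_le_mul_left _ hdeg
    exact Nat.le_of_mul_le_mul_right h1 hnpos
  have hfA : Finite (Subgroup.closure ((P : Set G) ∪ {c})) := inferInstance
  have heq := Subgroup.eq_of_le_of_card_ge hPle hcardle
  rw [heq]
  exact hcA

/-- A finite group with a faithful irreducible character of prime codegree `p` is cyclic of
order `p` or a Frobenius group with kernel of order `p`. -/
theorem cyclic_or_frobenius_of_prime_codeg (χ : Cfsg.IrrCharacter G)
    (hfaith : ∀ g : G, χ.1 g = χ.1 1 → g = 1) (p : ℕ) (hp : p.Prime)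
    (hcod : Nat.card G = p * Cfsg.charDegree χ.1) :
    (IsCyclic G ∧ Nat.card G = p) ∨
      ∃ H : Subgroup G, Cfsg.IsFrobeniusComplement H ∧ Nat.card ↥(Cfsg.frobeniusKernel H) = p := by
  have hpf : Fact p.Prime := ⟨hp⟩
  have hnpos : 0 < Cfsg.charDegree χ.1 := charDegree_pos χ
  have hlt := faithful_degree_lt χ hfaith p hp hcod
  by_cases hn1 : Cfsg.charDegree χ.1 = 1
  · left
    rw [hn1, mul_one] at hcod
    exact ⟨isCyclic_of_prime_card hcod, hcod⟩
  · right
    obtain ⟨P, hPn, hP⟩ := exists_normal_prime_of_card hp hnpos hlt hcod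
    have hidx : P.index = Cfsg.charDegree χ.1 := by
      have h := Subgroup.card_mul_index P
      rw [hP, hcod] at h
      exact Nat.eq_of_mul_eq_mul_left hp.pos h
    have hcop : Nat.Coprime (Nat.card P) P.index := by
      rw [hP, hidx]
      exact (Nat.Prime.coprime_iff_not_dvd hp).mpr
        (fun hd => absurd (Nat.le_of_dvd hnpos hd) (not_le.mpr hlt))
    obtain ⟨H, hH⟩ := Subgroup.exists_right_complement'_of_coprime hcop
    have hHcard : Nat.card H = Cfsg.charDegree χ.1 := by
      have h := hH.card_mul_card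
      rw [hP, hcod] at h
      exact Nat.eq_of_mul_eq_mul_left hp.pos h
    have hHne : H ≠ ⊥ := by
      intro h
      rw [h, Subgroup.card_bot] at hHcard
      exact hn1 hHcard.symm
    obtain ⟨hF, hK⟩ := frobenius_of_prime_kernel hp P hP H hH
      (fun c hc => mem_of_centralizes χ p hp hcod P hP c hc) hHne
    refine ⟨H, hF, ?_⟩
    rw [hK]
    exact hP

end

end Cfsg.Agent.H82
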