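import Cfsg.Agent.H59.GagDefs
import Cfsg.Agent.H60.Cores

set_option autoImplicit false

/-!
Piece S4840-E81A of the team project S4840 (helper59): `|V| = 81`, `O_5(X) ≠ 1`: no elements of
order 3.
-/

namespace Cfsg.Agent.H82.Gag

open Cfsg Cfsg.Agent.H59.Gag

universe u

/-- An element of order dividing 3 normalizing a subgroup of order 5 centralizes it. -/
theorem comm_of_card_five {X : Type*} [Group X] [Finite X] (R : Subgroup X) [hRn : R.Normal]
    (hR : Nat.card R = 5) (g : X) (hg : g ^ 3 = 1) : ∀ x ∈ R, g * x = x * g := by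
  obtain ⟨r, hr, hr1⟩ : ∃ r ∈ R, r ≠ 1 := by
    by_contra hno
    push Not at hno
    have hbot : R = ⊥ := (Subgroup.eq_bot_iff_forall R).mpr hno
    rw [hbot, Subgroup.card_bot] at hR
    omega
  have hord : orderOf r = 5 := by
    have h1 : orderOf r ∣ 5 := by
      rw [← hR]
      have h2 := orderOf_dvd_natCard (⟨r, hr⟩ : R)
      rwa [← Subgroup.orderOf_coe] at h2
    rcases (Nat.dvd_prime (by norm_num : Nat.Prime 5)).mp h1 with h | h
    · exact absurd (orderOf_eq_one_iff.mp h) hr1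
    · exact h
  have hz : Subgroup.zpowers r = R := by
    apply Subgroup.eq_of_le_of_card_ge (Subgroup.zpowers_le.mpr hr)
    rw [Nat.card_zpowers, hord, hR]
  have hconj : g * r * g⁻¹ ∈ Subgroup.zpowers r := by
    rw [hz]
    exact hRn.conj_mem r hr g
  rw [← mem_powers_iff_mem_zpowers, Submonoid.mem_powers_iff] at hconj
  obtain ⟨i, hi⟩ := hconj
  have hstep : ∀ j : ℕ, g * r ^ j * g⁻¹ = r ^ (i * j) := by
    intro j
    rw [← conj_pow, ← hi, ← pow_mul]
  have h3 : r ^ (i * (i * i)) = r ^ 1 := by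
    rw [← hstep (i * i), ← hstep i, hi, pow_one]
    have hg' : g * g * g = 1 := by
      rw [← hg, pow_succ, pow_succ, pow_one]
    have h4 : g * (g * (g * r * g⁻¹) * g⁻¹) * g⁻¹ = (g * g * g) * r * (g * g * g)⁻¹ := by
      simp only [mul_inv_rev, mul_assoc]
    rw [h4, hg', one_mul, inv_one, mul_one]
  rw [pow_eq_pow_iff_modEq, hord] at h3
  have hi1 : i ≡ 1 [MOD 5] := by
    unfold Nat.ModEq at h3 ⊢
    have h5 : i % 5 < 5 := Nat.mod_lt _ (by norm_num)
    have h6 : (i * (i * i)) % 5 = ((i % 5) * ((i % 5) * (i % 5))) % 5 := by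
      simp [Nat.mul_mod]
    rw [h6] at h3
    generalize i % 5 = j at h3 h5 ⊢
    interval_cases j <;> simp_all
  have hri : r ^ i = r ^ 1 := by
    rw [pow_eq_pow_iff_modEq, hord]
    exact hi1
  rw [pow_one] at hri
  have hc : Commute g r := by
    have h7 : g * r * g⁻¹ = r := by rw [← hi, hri]
    have h8 : g * r = r * g := by
      calc g * r = g * r * g⁻¹ * g := by group
        _ = r * g := by rw [h7]
    exact h8
  intro x hx
  rw [← hz] at hx
  obtain ⟨k, rfl⟩ := Subgroup.mem_zpowers_iff.mp hx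
  exact (hc.zpow_right k)

theorem e81a_of (hpfix : PFixStmt.{u}) (hfree : FreeStmt.{u}) : E81AStmt.{u} := by
  intro X _ _ p _ V _ _ _ _ ρ hLin hp3 hV hcore g hg
  subst hp3
  by_contra hg1
  haveI : Fact (Nat.Prime 5) := ⟨by norm_num⟩
  have hRp : IsPGroup 5 (pCore 5 X) := Cfsg.Agent.H60.isPGroup_pCore 5
  obtain ⟨k, hk⟩ := IsPGroup.iff_card.mp hRp
  have hcop : (Nat.card (pCore 5 X)).Coprime 3 := by
    rw [hk]
    exact Nat.Coprime.pow_left k (by norm_num)
  have h80 := hfree X 3 V ρ hLin (pCore 5 X) ⊤ hcop (fun _ _ _ _ => AddSubgroup.mem_top _)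
  rw [AddSubgroup.card_top, hV, hk] at h80
  have hR5 : Nat.card (pCore 5 X) = 5 := by
    rw [hk]
    rcases Nat.lt_or_ge k 2 with hk2 | hk2
    · interval_cases k
      · exfalso
        rw [pow_zero] at hk
        exact hcore (Subgroup.eq_bot_of_card_eq _ hk)
      · rfl
    · exfalso
      have h25 : 5 ^ 2 ∣ 5 ^ k := pow_dvd_pow 5 hk2
      have h1 := h25.trans h80
      norm_num at h1
  have hcomm := comm_of_card_five (pCore 5 X) hR5 g hg
  let W : AddSubgroup V :=
    { carrier := {v | ρ g v = v}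
      add_mem' := by
        intro a b ha hb
        show ρ g (a + b) = a + b
        rw [map_add, ha, hb]
      zero_mem' := map_zero _
      neg_mem' := by
        intro a ha
        show ρ g (-a) = -a
        rw [map_neg, ha] }
  have hWmem : ∀ v : V, v ∈ W ↔ ρ g v = v := fun v => Iff.rfl
  have hinv : ∀ x ∈ pCore 5 X, ∀ w ∈ W, ρ x w ∈ W := by
    intro x hx w hw
    rw [hWmem] at hw ⊢
    have h1 : ρ (g * x) w = ρ (x * g) w := by rw [hcomm x hx]
    rw [map_mul, map_mul] at h1
    have h2 : ρ g (ρ x w) = ρ x (ρ g w) := h1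
    rw [h2, hw]
  have h5 := hfree X 3 V ρ hLin (pCore 5 X) W hcop hinv
  rw [hR5] at h5
  have hWdvd : Nat.card W ∣ 3 ^ 4 := by
    have h1 := AddSubgroup.card_addSubgroup_dvd_card W
    rw [hV] at h1
    exact h1
  obtain ⟨m, hm, hWm⟩ := (Nat.dvd_prime_pow (by norm_num : Nat.Prime 3)).mp hWdvd
  have hQ : IsPGroup 3 (Subgroup.zpowers g) :=
    IsPGroup.of_card (n := 1) (by rw [Nat.card_zpowers, orderOf_eq_prime hg hg1, pow_one])
  obtain ⟨v, hv0, hv⟩ := hpfix X 3 V ρ (Subgroup.zpowers g) hQ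
  have hvW : v ∈ W := (hWmem v).mpr (hv g (Subgroup.mem_zpowers g))
  have hW81 : Nat.card W = 81 := by
    rw [hWm] at h5 ⊢
    interval_cases m
    · exfalso
      rw [pow_zero] at hWm
      have hbot := AddSubgroup.eq_bot_of_card_eq W hWm
      rw [hbot] at hvW
      exact hv0 (AddSubgroup.mem_bot.mp hvW)
    · norm_num at h5
    · norm_num at h5
    · norm_num at h5
    · norm_num
  have htop : W = ⊤ := AddSubgroup.eq_top_of_card_eq W (by rw [hW81, hV])
  apply hg1
  apply hLin.inj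
  rw [map_one]
  ext w
  have hw : w ∈ W := by
    rw [htop]
    exact AddSubgroup.mem_top w
  exact (hWmem w).mp hw

end Cfsg.Agent.H82.Gag
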