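import Cfsg.Agent.H59.GagDefs

set_option autoImplicit false

/-!
Piece S4840-FREE of the team project S4840 (helper59): a `p'`-subgroup acts freely on the
nonzero vectors of an invariant subgroup.
-/

namespace Cfsg.Agent.H82.Gag

open Cfsg Cfsg.Agent.H59.Gag

universe u

theorem card_dvd_of_free {L S : Type*} [Group L] [Finite L] [MulAction L S] [Finite S]
    (hfree : ∀ (g : L) (s : S), g • s = s → g = 1) : Nat.card L ∣ Nat.card S := by
  classical
  haveI := Fintype.ofFinite (MulAction.orbitRel.Quotient L S)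
  rw [Nat.card_congr (MulAction.selfEquivSigmaOrbits L S), Nat.card_sigma]
  apply Finset.dvd_sum
  intro ω _
  have hbij : Function.Bijective
      (fun g : L => (⟨g • ω.out, MulAction.mem_orbit ω.out g⟩ : MulAction.orbit L ω.out)) := by
    constructor
    · intro g h hgh
      have h1 : g • ω.out = h • ω.out := congrArg Subtype.val hgh
      have h2 : (h⁻¹ * g) • ω.out = ω.out := by
        rw [mul_smul, h1, inv_smul_smul]
      have h3 := hfree _ _ h2
      exact (inv_mul_eq_one.mp h3).symm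
    · rintro ⟨t, g, rfl⟩
      exact ⟨g, rfl⟩
  exact dvd_of_eq (Nat.card_congr (Equiv.ofBijective _ hbij))

theorem free : FreeStmt.{u} := by
  intro X _ _ p _ V _ _ _ ρ hLin L W hcop hinv
  classical
  letI : MulAction L {w : V // w ∈ W ∧ w ≠ 0} :=
    { smul := fun g w => ⟨ρ g.1 w.1, hinv g.1 g.2 w.1 w.2.1,
        fun h => w.2.2 ((ρ g.1).map_eq_zero_iff.mp h)⟩
      one_smul := fun w => Subtype.ext (by
        show ρ (1 : X) w.1 = w.1
        rw [map_one]
        rfl)
      mul_smul := fun g h w => Subtype.ext (by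
        show ρ (g.1 * h.1) w.1 = ρ g.1 (ρ h.1 w.1)
        rw [map_mul]
        rfl) }
  have hfree : ∀ (g : L) (s : {w : V // w ∈ W ∧ w ≠ 0}), g • s = s → g = 1 := by
    intro g s hgs
    have h1 : ρ g.1 s.1 = s.1 := congrArg Subtype.val hgs
    obtain ⟨k, hk⟩ := hLin.stab s.1 s.2.2 g.1 h1
    have h2 : orderOf (g : X) ∣ p ^ k := orderOf_dvd_of_pow_eq_one hk
    have h3 : orderOf (g : X) ∣ Nat.card L := by
      rw [Subgroup.orderOf_coe]
      exact orderOf_dvd_natCard g
    have h4 : orderOf (g : X) = 1 :=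
      Nat.Coprime.eq_one_of_dvd (Nat.Coprime.coprime_dvd_left h3 (hcop.pow_right k)) h2
    exact Subtype.ext (orderOf_eq_one_iff.mp h4)
  have hdvd := card_dvd_of_free hfree
  have hS : Nat.card {w : V // w ∈ W ∧ w ≠ 0} = Nat.card W - 1 := by
    have e : {w : V // w ∈ W ∧ w ≠ 0} ≃ ↥(({0} : Set W)ᶜ) :=
      { toFun := fun s => ⟨⟨s.1, s.2.1⟩, fun h => s.2.2 (congrArg Subtype.val h)⟩
        invFun := fun w => ⟨w.1.1, w.1.2, fun h => w.2 (Subtype.ext h)⟩
        left_inv := fun s => rfl
        right_inv := fun w => rfl }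
    rw [Nat.card_congr e, Nat.card_coe_set_eq, Set.ncard_compl, Set.ncard_singleton]
  rw [← hS]
  exact hdvd

end Cfsg.Agent.H82.Gag
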