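import Cfsg.Agent.H59.GagDefs
import Cfsg.Agent.H60.Cores
import Cfsg.Agent.H27.Rad
import Cfsg.Agent.S0044
import Cfsg.Agent.H82.GagFree

set_option autoImplicit false

/-!
Piece S4840-E81B of the team project S4840 (helper59): `|V| = 81`, `O_5(X) = 1` is impossible
for solvable `X`.
-/

namespace Cfsg.Agent.H82.Gag

open Cfsg Cfsg.Agent.H59.Gag

universe u

theorem card_sdiff_subgroup' {N : Type*} [Group N] (A H : Subgroup N) [Finite A] (hHA : H ≤ A) :
    Nat.card {y : N // y ∈ A ∧ y ∉ H} = Nat.card A - Nat.card H := by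
  have h1 : Nat.card {y : N // y ∈ A ∧ y ∉ H} = ((A : Set N) \ (H : Set N)).ncard := by
    rw [← Nat.card_coe_set_eq]
    rfl
  have hfin : (A : Set N).Finite := Set.toFinite _
  have h2 := Set.ncard_sdiff_add_ncard_of_subset (s := (H : Set N)) (t := (A : Set N))
    (by exact_mod_cast hHA) hfin
  have h3 : Nat.card A = (A : Set N).ncard := (Nat.card_coe_set_eq (A : Set N))
  have h4 : Nat.card H = (H : Set N).ncard := (Nat.card_coe_set_eq (H : Set N))
  rw [h1, h3, h4]
  omega

theorem mem_cent_singleton {X : Type*} [Group X] {y t : X} :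
    t ∈ Subgroup.centralizer ({y} : Set X) ↔ Commute y t := by
  rw [Subgroup.mem_centralizer_iff]
  constructor
  · intro h
    exact h y (Set.mem_singleton y)
  · intro h w hw
    rw [Set.mem_singleton_iff.mp hw]
    exact h

/-- An element of order 5 normalizing a subgroup `T` centralizes it modulo 5: the number of
elements of `T` not commuting with `y` is divisible by 5. -/
theorem five_dvd_noncentral {X : Type*} [Group X] [Finite X] (T : Subgroup X) [hTn : T.Normal]
    (y : X) (hy : orderOf y = 5) :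
    5 ∣ Nat.card T - Nat.card ↥(T ⊓ Subgroup.centralizer ({y} : Set X)) := by
  classical
  have hcomm : ∀ g ∈ Subgroup.zpowers y, Commute y g := by
    intro g hg
    obtain ⟨m, rfl⟩ := Subgroup.mem_zpowers_iff.mp hg
    exact (Commute.refl y).zpow_right m
  letI : MulAction (Subgroup.zpowers y)
      {t : X // t ∈ T ∧ t ∉ T ⊓ Subgroup.centralizer ({y} : Set X)} :=
    { smul := fun g t => ⟨g.1 * t.1 * g.1⁻¹, hTn.conj_mem t.1 t.2.1 g.1, fun h => t.2.2
        (Subgroup.mem_inf.mpr ⟨t.2.1, by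
        have hc : Commute y (g.1 * t.1 * g.1⁻¹) := mem_cent_singleton.mp (Subgroup.mem_inf.mp h).2
        have hcg : Commute y g.1 := hcomm g.1 g.2
        have h1 : Commute y (g.1⁻¹ * (g.1 * t.1 * g.1⁻¹) * g.1) :=
          (hcg.inv_right.mul_right hc).mul_right hcg
        have h2 : g.1⁻¹ * (g.1 * t.1 * g.1⁻¹) * g.1 = t.1 := by group
        rw [h2] at h1
        exact mem_cent_singleton.mpr h1⟩)⟩
      one_smul := fun t => Subtype.ext (by
        show (1 : X) * t.1 * (1 : X)⁻¹ = t.1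
        group)
      mul_smul := fun g h t => Subtype.ext (by
        show (g.1 * h.1) * t.1 * (g.1 * h.1)⁻¹ = g.1 * (h.1 * t.1 * h.1⁻¹) * g.1⁻¹
        group) }
  have hcardL : Nat.card (Subgroup.zpowers y) = 5 := by rw [Nat.card_zpowers, hy]
  have hfree : ∀ (g : Subgroup.zpowers y)
      (t : {t : X // t ∈ T ∧ t ∉ T ⊓ Subgroup.centralizer ({y} : Set X)}), g • t = t → g = 1 := by
    intro g t hgt
    by_contra hg1
    have hg1' : (g : X) ≠ 1 := fun h => hg1 (Subtype.ext h)
    have h1 : g.1 * t.1 * g.1⁻¹ = t.1 := congrArg Subtype.val hgt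
    have hord : orderOf (g : X) = 5 := by
      have h2 : orderOf (g : X) ∣ 5 := by
        rw [← hcardL, Subgroup.orderOf_coe]
        exact orderOf_dvd_natCard g
      rcases (Nat.dvd_prime (by norm_num : Nat.Prime 5)).mp h2 with h | h
      · exact absurd (orderOf_eq_one_iff.mp h) hg1'
      · exact h
    have hz : Subgroup.zpowers (g : X) = Subgroup.zpowers y := by
      apply Subgroup.eq_of_le_of_card_ge (Subgroup.zpowers_le.mpr g.2)
      rw [Nat.card_zpowers, Nat.card_zpowers, hord, hy]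
    have hyg : y ∈ Subgroup.zpowers (g : X) := by
      rw [hz]
      exact Subgroup.mem_zpowers y
    obtain ⟨m, hm⟩ := Subgroup.mem_zpowers_iff.mp hyg
    have hgt' : Commute (g : X) t.1 := by
      have h3 : g.1 * t.1 = t.1 * g.1 := by
        calc g.1 * t.1 = g.1 * t.1 * g.1⁻¹ * g.1 := by group
          _ = t.1 * g.1 := by rw [h1]
      exact h3
    have hyt : Commute y t.1 := by
      have h4 : Commute ((g : X) ^ m) t.1 := hgt'.zpow_left m
      rwa [hm] at h4
    exact t.2.2 (Subgroup.mem_inf.mpr ⟨t.2.1, mem_cent_singleton.mpr hyt⟩)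
  have hdvd := card_dvd_of_free hfree
  rw [hcardL, card_sdiff_subgroup' T _ inf_le_left] at hdvd
  exact hdvd

theorem e81b_of (hnop : NopStmt.{u}) (hfree : FreeStmt.{u}) (hinvol : InvolStmt.{u})
    (horb : OrbStmt.{u}) : E81BStmt.{u} := by
  intro X _ _ p _ V _ _ _ _ ρ hsol hLin hp3 hV hcore5
  subst hp3
  have hcores : ∀ q : ℕ, q.Prime → q ≠ 2 → pCore q X = ⊥ := by
    intro q hq hq2
    haveI : Fact q.Prime := ⟨hq⟩
    have hQp : IsPGroup q (pCore q X) := Cfsg.Agent.H60.isPGroup_pCore q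
    by_cases h3 : q = 3
    · subst h3
      exact hnop X 3 V ρ hLin (pCore 3 X) inferInstance hQp
    by_cases h5 : q = 5
    · subst h5
      exact hcore5
    obtain ⟨k, hk⟩ := IsPGroup.iff_card.mp hQp
    have hcop : (Nat.card (pCore q X)).Coprime 3 := by
      rw [hk]
      exact Nat.Coprime.pow_left k ((Nat.coprime_primes hq (by norm_num)).mpr h3)
    have h80 := hfree X 3 V ρ hLin (pCore q X) ⊤ hcop (fun _ _ _ _ => AddSubgroup.mem_top _)
    rw [AddSubgroup.card_top, hV, hk] at h80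
    apply Subgroup.eq_bot_of_card_eq
    rw [hk]
    rcases Nat.eq_zero_or_pos k with rfl | hkpos
    · rfl
    · exfalso
      have hq80 : q ∣ 2 ^ 4 * 5 := (dvd_pow_self q hkpos.ne').trans h80
      rcases (Nat.Prime.dvd_mul hq).mp hq80 with h | h
      · exact hq2 ((Nat.prime_dvd_prime_iff_eq hq (by norm_num)).mp (hq.dvd_of_dvd_pow h))
      · exact h5 ((Nat.prime_dvd_prime_iff_eq hq (by norm_num)).mp h)
  haveI : Fact (Nat.Prime 2) := ⟨by norm_num⟩
  have hfit : fittingSubgroup X = pCore 2 X := by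
    rw [Cfsg.Agent.H27.fitting_eq_pCoreJoin]
    apply le_antisymm
    · apply iSup_le
      rintro ⟨q, hq⟩
      have hqp := Nat.prime_of_mem_primeFactors hq
      by_cases hq2 : q = 2
      · subst hq2
        exact le_refl _
      · show pCore q X ≤ pCore 2 X
        rw [hcores q hqp hq2]
        exact bot_le
    · exact Cfsg.Agent.H27.pCore_le_pCoreJoin 2
  haveI := hsol
  have hcent : Subgroup.centralizer ((pCore 2 X : Subgroup X) : Set X) ≤ pCore 2 X := by
    have h1 := Cfsg.Agent.S0044.result (G := X)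
    rwa [hfit] at h1
  have hTp : IsPGroup 2 (pCore 2 X) := Cfsg.Agent.H60.isPGroup_pCore 2
  obtain ⟨k, hk⟩ := IsPGroup.iff_card.mp hTp
  have hcopT : (Nat.card (pCore 2 X)).Coprime 3 := by
    rw [hk]
    exact Nat.Coprime.pow_left k (by norm_num)
  have hT80 := hfree X 3 V ρ hLin (pCore 2 X) ⊤ hcopT (fun _ _ _ _ => AddSubgroup.mem_top _)
  rw [AddSubgroup.card_top, hV, hk] at hT80
  have hk4 : k ≤ 4 := by
    by_contra hc
    push Not at hc
    have h1 : 2 ^ 5 ∣ 2 ^ k := pow_dvd_pow 2 hc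
    have h2 := h1.trans hT80
    norm_num at h2
  have h80X := horb X 3 V ρ hLin
  rw [hV] at h80X
  have h5X : 5 ∣ Nat.card X := (by norm_num : 5 ∣ 81 - 1).trans h80X
  haveI : Fact (Nat.Prime 5) := ⟨by norm_num⟩
  obtain ⟨y, hy⟩ := exists_prime_orderOf_dvd_card' 5 h5X
  have hTne : pCore 2 X ≠ ⊥ := by
    intro hbot
    rw [hbot] at hcent
    have h1 : y ∈ (⊥ : Subgroup X) := hcent (by
      rw [Subgroup.mem_centralizer_iff]
      intro h hh
      have h2 : h = 1 := Subgroup.mem_bot.mp hh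
      rw [h2, one_mul, mul_one])
    rw [Subgroup.mem_bot] at h1
    rw [h1, orderOf_one] at hy
    norm_num at hy
  have hk0 : k ≠ 0 := by
    rintro rfl
    exact hTne (Subgroup.eq_bot_of_card_eq _ hk)
  have h2T : 2 ∣ Nat.card (pCore 2 X) := by
    rw [hk]
    exact dvd_pow_self 2 hk0
  obtain ⟨z, hz⟩ := exists_prime_orderOf_dvd_card' 2 h2T
  have hzX : orderOf (z : X) = 2 := by
    rw [Subgroup.orderOf_coe]
    exact hz
  have hz1 : (z : X) ≠ 1 := by
    intro h
    rw [h, orderOf_one] at hzX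
    norm_num at hzX
  have hz2 : (z : X) ^ 2 = 1 := by
    have h1 := pow_orderOf_eq_one (z : X)
    rwa [hzX] at h1
  have hyz : y * (z : X) * y⁻¹ = z := by
    apply hinvol X 3 V ρ hLin (by norm_num) _ _ ?_ hz1 ?_ hz2
    · intro h
      apply hz1
      have h1 : (z : X) = y⁻¹ * (y * z * y⁻¹) * y := by group
      rw [h1, h]
      group
    · rw [conj_pow, hz2]
      group
  -- the centralizer of `y` in `T`
  have hdvd := five_dvd_noncentral (pCore 2 X) y hy
  have hCdvd : Nat.card ↥(pCore 2 X ⊓ Subgroup.centralizer ({y} : Set X)) ∣ 2 ^ k := by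
    rw [← hk]
    exact Subgroup.card_dvd_of_le inf_le_left
  obtain ⟨j, hjk, hj⟩ := (Nat.dvd_prime_pow (by norm_num : Nat.Prime 2)).mp hCdvd
  have hzC : (z : X) ∈ pCore 2 X ⊓ Subgroup.centralizer ({y} : Set X) := by
    refine Subgroup.mem_inf.mpr ⟨z.2, mem_cent_singleton.mpr ?_⟩
    show y * (z : X) = z * y
    calc y * (z : X) = y * z * y⁻¹ * y := by group
      _ = z * y := by rw [hyz]
  have hj0 : j ≠ 0 := by
    rintro rfl
    rw [pow_zero] at hj
    have hbot := Subgroup.eq_bot_of_card_eq _ hj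
    rw [hbot] at hzC
    exact hz1 (Subgroup.mem_bot.mp hzC)
  rw [hk, hj] at hdvd
  have hkj : j = k := by
    have hj1 : 1 ≤ j := Nat.one_le_iff_ne_zero.mpr hj0
    have hk1 : 1 ≤ k := Nat.one_le_iff_ne_zero.mpr hk0
    interval_cases k <;> interval_cases j <;> first | rfl | (exfalso; norm_num at hdvd)
  have hCT : pCore 2 X ⊓ Subgroup.centralizer ({y} : Set X) = pCore 2 X := by
    apply Subgroup.eq_of_le_of_card_ge inf_le_left
    rw [hk, hj, hkj]
  have hyT : y ∈ pCore 2 X := by
    apply hcent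
    rw [Subgroup.mem_centralizer_iff]
    intro t ht
    have ht' : t ∈ pCore 2 X ⊓ Subgroup.centralizer ({y} : Set X) := by
      rw [hCT]
      exact ht
    exact (mem_cent_singleton.mp (Subgroup.mem_inf.mp ht').2).symm
  have h5dvd : 5 ∣ 2 ^ k := by
    rw [← hk, ← hy]
    have h1 := orderOf_dvd_natCard (⟨y, hyT⟩ : pCore 2 X)
    rwa [Subgroup.orderOf_mk] at h1
  have h52 : 5 ∣ 2 := (by norm_num : Nat.Prime 5).dvd_of_dvd_pow h5dvd
  norm_num at h52

end Cfsg.Agent.H82.Gag
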