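import Mathlib

set_option autoImplicit false

namespace Cfsg.Agent.H82

open scoped commutatorElement

variable {G : Type*} [Group G]

theorem centralizer_eq_zpowers_of_card_two (u : G) (hu : u ≠ 1)
    (h : Nat.card (Subgroup.centralizer ({u} : Set G)) = 2) :
    orderOf u = 2 ∧ Subgroup.centralizer ({u} : Set G) = Subgroup.zpowers u := by
  have hle : Subgroup.zpowers u ≤ Subgroup.centralizer ({u} : Set G) := by
    rw [Subgroup.zpowers_le]
    exact Subgroup.mem_centralizer_singleton_iff.mpr rfl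
  have hfin : Finite (Subgroup.centralizer ({u} : Set G)) :=
    Nat.finite_of_card_ne_zero (by omega)
  have hdvd : orderOf u ∣ 2 := by
    have := Subgroup.card_dvd_of_le hle
    rwa [Nat.card_zpowers, h] at this
  have h2 : orderOf u = 2 := by
    rcases (Nat.dvd_prime Nat.prime_two).mp hdvd with h1 | h1
    · exact absurd (orderOf_eq_one_iff.mp h1) hu
    · exact h1
  refine ⟨h2, (Subgroup.eq_of_le_of_card_ge hle ?_).symm⟩
  rw [Nat.card_zpowers, h2, h]

theorem mem_zpowers_of_orderOf_two {u x : G} (h2 : orderOf u = 2)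
    (hx : x ∈ Subgroup.zpowers u) : x = 1 ∨ x = u := by
  obtain ⟨n, rfl⟩ := Subgroup.mem_zpowers_iff.mp hx
  rw [← zpow_mod_orderOf, h2]
  have : (n % ((2 : ℕ) : ℤ)) = 0 ∨ (n % ((2 : ℕ) : ℤ)) = 1 := by omega
  rcases this with h | h
  · left; rw [h]; simp
  · right; rw [h]; simp

theorem not_two_dvd_card_of_index_two [Finite G] (K : Subgroup G) [K.Normal] (u : G)
    (h2 : orderOf u = 2) (huK : u ∉ K)
    (hC : Subgroup.centralizer ({u} : Set G) = Subgroup.zpowers u) : ¬ 2 ∣ Nat.card K := by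
  intro hdvd
  have hp2 : Fact (Nat.Prime 2) := ⟨Nat.prime_two⟩
  obtain ⟨t, ht⟩ := exists_prime_orderOf_dvd_card' 2 hdvd
  have huu : u * u = 1 := by rw [← sq, ← h2]; exact pow_orderOf_eq_one u
  have hinv : u⁻¹ = u := inv_eq_of_mul_eq_one_left huu
  have hCK : ∀ x ∈ K, x * u = u * x → x = 1 := by
    intro x hxK hxu
    have hx : x ∈ Subgroup.centralizer ({u} : Set G) :=
      Subgroup.mem_centralizer_singleton_iff.mpr hxu
    rw [hC] at hx
    rcases mem_zpowers_of_orderOf_two h2 hx with h | h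
    · exact h
    · exact absurd (h ▸ hxK) huK
  let f : K → K := fun k => ⟨(k : G)⁻¹ * (u * k * u⁻¹),
    K.mul_mem (K.inv_mem k.2) (Subgroup.Normal.conj_mem inferInstance (k : G) k.2 u)⟩
  have hinj : Function.Injective f := by
    intro k l hkl
    have h1 : (k : G)⁻¹ * (u * k * u⁻¹) = (l : G)⁻¹ * (u * l * u⁻¹) := congrArg Subtype.val hkl
    have h4 : (k : G)⁻¹ * u * k = (l : G)⁻¹ * u * l := by
      have := congrArg (· * u) h1
      simpa [mul_assoc] using this
    have h3 : ((l : G) * (k : G)⁻¹) * u = u * ((l : G) * (k : G)⁻¹) := by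
      calc (l : G) * (k : G)⁻¹ * u = l * ((k : G)⁻¹ * u * k) * (k : G)⁻¹ := by group
        _ = l * ((l : G)⁻¹ * u * l) * (k : G)⁻¹ := by rw [h4]
        _ = u * (l * (k : G)⁻¹) := by group
    have h5 := hCK _ (K.mul_mem l.2 (K.inv_mem k.2)) h3
    exact Subtype.ext (mul_inv_eq_one.mp h5).symm
  have hsurj : Function.Surjective f := Finite.surjective_of_injective hinj
  obtain ⟨k, hk⟩ := hsurj t
  have htk : (t : G) = (k : G)⁻¹ * (u * k * u⁻¹) := (congrArg Subtype.val hk).symm
  have h6 : u * (t : G) * u⁻¹ = (t : G)⁻¹ := by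
    rw [htk, hinv]
    have e : ((k : G)⁻¹ * (u * k * u))⁻¹ = u⁻¹ * (k : G)⁻¹ * u⁻¹ * k := by group
    rw [e, hinv]
    calc u * ((k : G)⁻¹ * (u * k * u)) * u = u * (k : G)⁻¹ * u * k * (u * u) := by group
      _ = u * (k : G)⁻¹ * u * k := by rw [huu, mul_one]
  have ht2 : (t : G) * t = 1 := by
    have : t * t = 1 := by rw [← sq, ← ht]; exact pow_orderOf_eq_one t
    exact_mod_cast congrArg Subtype.val this
  have htinv : (t : G)⁻¹ = t := inv_eq_of_mul_eq_one_left ht2
  rw [htinv] at h6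
  have h7 : (t : G) * u = u * t := by
    have := congrArg (· * u) h6
    simpa [mul_assoc] using this.symm
  have h8 := hCK t t.2 h7
  have : t = 1 := Subtype.ext h8
  rw [this, orderOf_one] at ht
  omega

theorem zpowers_sup_eq_top_of_index_two (K : Subgroup G) (hK : K.index = 2) (u : G)
    (huK : u ∉ K) : Subgroup.zpowers u ⊔ K = ⊤ := by
  rw [eq_top_iff]
  intro x _
  by_cases hx : x ∈ K
  · exact Subgroup.mem_sup_right hx
  · have h1 : u⁻¹ * x ∈ K := by
      rw [Subgroup.mul_mem_iff_of_index_two hK]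
      constructor
      · intro h; exact absurd (K.inv_mem_iff.mp h) huK
      · intro h; exact absurd h hx
    have : x = u * (u⁻¹ * x) := by group
    rw [this]
    exact Subgroup.mul_mem_sup (Subgroup.mem_zpowers u) h1

theorem commutator_le_of_zpowers_sup_eq_top (O : Subgroup G) [O.Normal] (u : G)
    (h : Subgroup.zpowers u ⊔ O = ⊤) : commutator G ≤ O := by
  rw [commutator_def, Subgroup.commutator_le]
  intro a _ b _
  have ha : a ∈ Subgroup.zpowers u ⊔ O := h ▸ Subgroup.mem_top a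
  have hb : b ∈ Subgroup.zpowers u ⊔ O := h ▸ Subgroup.mem_top b
  obtain ⟨a1, ha1, a2, ha2, rfl⟩ := Subgroup.mem_sup_of_normal_right.mp ha
  obtain ⟨b1, hb1, b2, hb2, rfl⟩ := Subgroup.mem_sup_of_normal_right.mp hb
  obtain ⟨i, rfl⟩ := Subgroup.mem_zpowers_iff.mp ha1
  obtain ⟨j, rfl⟩ := Subgroup.mem_zpowers_iff.mp hb1
  rw [← QuotientGroup.eq_one_iff]
  have e1 : ((u ^ i * a2 : G) : G ⧸ O) = (u : G ⧸ O) ^ i := by
    rw [QuotientGroup.mk_mul, (QuotientGroup.eq_one_iff a2).mpr ha2, mul_one,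
      QuotientGroup.mk_zpow]
  have e2 : ((u ^ j * b2 : G) : G ⧸ O) = (u : G ⧸ O) ^ j := by
    rw [QuotientGroup.mk_mul, (QuotientGroup.eq_one_iff b2).mpr hb2, mul_one,
      QuotientGroup.mk_zpow]
  rw [commutatorElement_def]
  simp only [QuotientGroup.mk_mul, QuotientGroup.mk_inv, e1, e2]
  group

end Cfsg.Agent.H82
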