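import Mathlib
import Cfsg.Prelude.Def_Blocks
import Cfsg.Prelude.Def_Solvable
import Cfsg.Agent.H82.IndDeg
import Cfsg.Agent.H82.SumSq
import Cfsg.Agent.H82.Triv
import Cfsg.Agent.H14.Cores
import Cfsg.Agent.H83.Gagola2
import Cfsg.Agent.S0188

/-!
# Nilpotent groups: splitting off the Sylow `p`-subgroup, and characters (helper82)
-/

set_option autoImplicit false

namespace Cfsg.Agent.H82

open Cfsg.Agent.H4

section

variable {G : Type*} [Group G] [Finite G]

/-- A finite nilpotent group is the direct product of a `p`-subgroup and a subgroup of order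
prime to `p`. -/
theorem exists_prod_equiv_of_nilpotent [Group.IsNilpotent G] (p : ℕ) [hp : Fact p.Prime] :
    ∃ (P K : Subgroup G), IsPGroup p P ∧ (Nat.card K).Coprime p ∧ Nonempty (P × K ≃* G) := by
  obtain ⟨P⟩ : Nonempty (Sylow p G) := inferInstance
  have hPn : (P : Subgroup G).Normal := inferInstance
  have hKn : (Cfsg.pPrimeCore p G).Normal := Cfsg.Agent.H14.pPrimeCore_normal p G
  have hKcop : (Nat.card (Cfsg.pPrimeCore p G)).Coprime p :=
    Cfsg.Agent.H14.pPrimeCore_coprime p G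
  have hidx : ∀ {q : ℕ}, q.Prime → q ∣ (Cfsg.pPrimeCore p G).index → q = p := by
    intro q hq hqd
    by_contra hne
    have hqf : Fact q.Prime := ⟨hq⟩
    obtain ⟨Q⟩ : Nonempty (Sylow q G) := inferInstance
    have hQn : (Q : Subgroup G).Normal := inferInstance
    obtain ⟨b, hb⟩ := IsPGroup.iff_card.mp Q.isPGroup'
    have hQcop : (Nat.card (Q : Subgroup G)).Coprime p := by
      rw [hb]
      exact Nat.Coprime.pow_left _ ((Nat.coprime_primes hq hp.out).mpr hne)
    have hQle : (Q : Subgroup G) ≤ Cfsg.pPrimeCore p G := Cfsg.Agent.H14.le_pPrimeCore hQn hQcop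
    exact Q.not_dvd_index (hqd.trans (Subgroup.index_dvd_of_le hQle))
  have hidx0 : (Cfsg.pPrimeCore p G).index ≠ 0 := Subgroup.index_ne_zero_of_finite
  have hpow := Nat.eq_prime_pow_of_unique_prime_dvd hidx0 hidx
  set j := (Cfsg.pPrimeCore p G).index.primeFactorsList.length with hj
  have hcardG : Nat.card G = Nat.card (Cfsg.pPrimeCore p G) * p ^ j := by
    rw [← hpow]
    exact (Subgroup.card_mul_index _).symm
  have hK0 : Nat.card (Cfsg.pPrimeCore p G) ≠ 0 := Nat.card_pos.ne'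
  have hpK : ¬ p ∣ Nat.card (Cfsg.pPrimeCore p G) := by
    intro hd
    have := Nat.Coprime.eq_one_of_dvd hKcop.symm hd
    exact hp.out.one_lt.ne' this
  have hPcard : Nat.card (P : Subgroup G) = p ^ j := by
    rw [Sylow.card_eq_multiplicity, hcardG, Nat.factorization_mul hK0 (pow_ne_zero _ hp.out.ne_zero)]
    simp [Nat.factorization_eq_zero_of_not_dvd hpK, hp.out.factorization_self]
  have hmul : Nat.card (P : Subgroup G) * Nat.card (Cfsg.pPrimeCore p G) = Nat.card G := by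
    rw [hPcard, hcardG, mul_comm]
  have hcop : Nat.Coprime (Nat.card (P : Subgroup G)) (Nat.card (Cfsg.pPrimeCore p G)) := by
    rw [hPcard]
    exact Nat.Coprime.pow_left _ hKcop.symm
  have hcompl : Subgroup.IsComplement' (P : Subgroup G) (Cfsg.pPrimeCore p G) :=
    Subgroup.isComplement'_of_coprime hmul hcop
  have hcomm : ∀ (a : (P : Subgroup G)) (b : Cfsg.pPrimeCore p G),
      Commute ((P : Subgroup G).subtype a) ((Cfsg.pPrimeCore p G).subtype b) := fun a b =>
    Subgroup.commute_of_normal_of_disjoint _ _ hPn hKn hcompl.disjoint a b a.2 b.2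
  have hbij : Function.Bijective (MonoidHom.noncommCoprod (P : Subgroup G).subtype
      (Cfsg.pPrimeCore p G).subtype hcomm) := hcompl
  exact ⟨P, Cfsg.pPrimeCore p G, P.isPGroup', hKcop, ⟨MulEquiv.ofBijective _ hbij⟩⟩

/-- A group all of whose irreducible characters coincide is trivial. -/
theorem card_eq_one_of_irr_subsingleton (K : Type*) [Group K] [Finite K]
    (h : ∀ ψ ψ' : Cfsg.IrrCharacter K, ψ = ψ') : Nat.card K = 1 := by
  have hfinI : Finite (Cfsg.IrrCharacter K) := irr_finite K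
  have hft := Fintype.ofFinite (Cfsg.IrrCharacter K)
  rw [← sum_sq_nat K, Finset.sum_eq_single (trivChar K)]
  · rw [charDegree_trivChar, one_pow]
  · intro ψ _ hψ
    exact absurd (h ψ (trivChar K)) hψ
  · intro habs
    exact absurd (Finset.mem_univ _) habs

/-- A finite nilpotent group with exactly one irreducible character of degree divisible by `p`
is a `p`-group. -/
theorem isPGroup_of_unique_of_nilpotent [Group.IsNilpotent G] (p : ℕ) [hp : Fact p.Prime]
    (χ0 : Cfsg.IrrCharacter G) (h0 : p ∣ Cfsg.charDegree χ0.1)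
    (huniq : ∀ χ : Cfsg.IrrCharacter G, p ∣ Cfsg.charDegree χ.1 → χ = χ0) : IsPGroup p G := by
  obtain ⟨P, K, hP, hK, ⟨e⟩⟩ := exists_prod_equiv_of_nilpotent (G := G) p
  have hθ0 : Cfsg.IsIrrCharacter (P × K) (fun x : P × K => χ0.1 (e x)) :=
    Cfsg.Agent.H83.isIrrCharacter_comp_mulEquiv e χ0.2
  obtain ⟨φ, ψ, hφ, hψ, hθ⟩ := (Cfsg.Agent.S0188.result _).mp hθ0
  have hdeg : ∀ (ψ' : Cfsg.IrrCharacter K) (χ' : Cfsg.IrrCharacter G),
      (∀ x : P × K, χ'.1 (e x) = φ x.1 * ψ'.1 x.2) →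
      Cfsg.charDegree χ'.1 = Cfsg.charDegree φ * Cfsg.charDegree ψ'.1 := by
    intro ψ' χ' hχ'
    have h1 := hχ' 1
    rw [map_one, irr_one_eq_charDegree] at h1
    have h2 : φ 1 = (Cfsg.charDegree φ : ℂ) :=
      irr_one_eq_charDegree (⟨φ, hφ⟩ : Cfsg.IrrCharacter P)
    have h3 := irr_one_eq_charDegree ψ'
    simp only [Prod.fst_one, Prod.snd_one] at h1
    rw [h2, h3] at h1
    exact_mod_cast h1
  have hχ0 : ∀ x : P × K, χ0.1 (e x) = φ x.1 * (⟨ψ, hψ⟩ : Cfsg.IrrCharacter K).1 x.2 :=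
    fun x => congrFun hθ x
  have hd0 := hdeg ⟨ψ, hψ⟩ χ0 hχ0
  have hψK : Cfsg.charDegree ψ ∣ Nat.card K := charDegree_dvd_card (⟨ψ, hψ⟩ : Cfsg.IrrCharacter K)
  have hpφ : p ∣ Cfsg.charDegree φ := by
    rw [hd0] at h0
    have hcop : Nat.Coprime p (Cfsg.charDegree ψ) :=
      Nat.Coprime.coprime_dvd_right hψK hK.symm
    exact hcop.dvd_of_dvd_mul_right h0
  have hφ1 : φ 1 ≠ 0 := irr_one_ne_zero (⟨φ, hφ⟩ : Cfsg.IrrCharacter P)
  have hall : ∀ ψ' : Cfsg.IrrCharacter K, ψ' = ⟨ψ, hψ⟩ := by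
    intro ψ'
    have hθ' : Cfsg.IsIrrCharacter (P × K) (fun x : P × K => φ x.1 * ψ'.1 x.2) :=
      Cfsg.Agent.S0188.prod_irr hφ ψ'.2
    have hχ'irr : Cfsg.IsIrrCharacter G (fun g : G => φ (e.symm g).1 * ψ'.1 (e.symm g).2) :=
      Cfsg.Agent.H83.isIrrCharacter_comp_mulEquiv e.symm hθ'
    have hχ' : ∀ x : P × K, (⟨_, hχ'irr⟩ : Cfsg.IrrCharacter G).1 (e x) = φ x.1 * ψ'.1 x.2 := by
      intro x
      change φ (e.symm (e x)).1 * ψ'.1 (e.symm (e x)).2 = _
      rw [MulEquiv.symm_apply_apply]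
    have hd' := hdeg ψ' ⟨_, hχ'irr⟩ hχ'
    have heq : (⟨_, hχ'irr⟩ : Cfsg.IrrCharacter G) = χ0 := by
      apply huniq
      rw [hd']
      exact Dvd.dvd.mul_right hpφ _
    apply Subtype.ext
    funext k
    have h1 := hχ' (1, k)
    rw [heq, hχ0 (1, k)] at h1
    exact (mul_left_cancel₀ hφ1 h1).symm
  have hK1 : Nat.card K = 1 :=
    card_eq_one_of_irr_subsingleton K (fun a b => (hall a).trans (hall b).symm)
  have hP' : Fact p.Prime := hp
  obtain ⟨n, hn⟩ := IsPGroup.iff_card.mp hP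
  refine IsPGroup.of_card (n := n) ?_
  rw [← Nat.card_congr e.toEquiv, Nat.card_prod, hK1, mul_one, hn]

end

end Cfsg.Agent.H82
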