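import Mathlib
import Cfsg.Prelude.Def_Characters
import Cfsg.Prelude.Def_Blocks
import Cfsg.Agent.S4441
import Cfsg.Agent.H78.DefectZero
import Cfsg.Agent.H21.E2Block
import Cfsg.Agent.H81.BlockDeg
import Cfsg.Agent.H81.Reg
import Cfsg.Agent.H4.BrauerBasic

/-!
# Piece S1022-E3 (for helper21), part a: a group of order `2^7 * 3^2 * 19` whose Sylow
`19`-subgroup `P` has `|N(P) : C(P)| = 3` has a normal subgroup `K` of index `3` containing `P`
with `N_K(P) ≤ C(P)`.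
-/

set_option autoImplicit false
set_option linter.unusedSectionVars false
set_option linter.style.haveILetI false

namespace Cfsg.Agent.H82.O459

open Cfsg

/-- divisors of `2^7 * 3^2 * 19`. -/
theorem dvd_21888 {d : ℕ} (hd : d ∣ 2 ^ 7 * 3 ^ 2 * 19) :
    ∃ i j k : ℕ, i ≤ 7 ∧ j ≤ 2 ∧ k ≤ 1 ∧ d = 2 ^ i * 3 ^ j * 19 ^ k := by
  obtain ⟨ab, c, hab, hc, rfl⟩ := (Nat.dvd_mul).mp hd
  obtain ⟨a, b, ha, hb, rfl⟩ := (Nat.dvd_mul).mp hab
  obtain ⟨i, hi, rfl⟩ := (Nat.dvd_prime_pow Nat.prime_two).mp ha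
  obtain ⟨j, hj, rfl⟩ := (Nat.dvd_prime_pow Nat.prime_three).mp hb
  rcases (Nat.dvd_prime (by norm_num : Nat.Prime 19)).mp hc with rfl | rfl
  · exact ⟨i, j, 0, hi, hj, by norm_num, by simp⟩
  · exact ⟨i, j, 1, hi, hj, le_refl _, by simp⟩

theorem deg_X_cases {d : ℕ} (hd : d ∣ 2 ^ 7 * 3 ^ 2 * 19) (s : ℤ) (hs : s = 1 ∨ s = -1)
    (hmod : (d : ℤ) ≡ s [ZMOD ((19 : ℕ) : ℤ)]) :
    s * (d : ℤ) = 1 ∨ s * (d : ℤ) = 96 ∨ s * (d : ℤ) = -18 := by
  obtain ⟨i, j, k, hi, hj, hk, rfl⟩ := dvd_21888 hd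
  unfold Int.ModEq at hmod
  rcases hs with rfl | rfl <;> interval_cases i <;> interval_cases j <;> interval_cases k <;>
    first | omega | (exfalso; revert hmod; norm_num) | norm_num

theorem deg_Y_cases {d : ℕ} (hd : d ∣ 2 ^ 7 * 3 ^ 2 * 19) (s : ℤ) (hs : s = 1 ∨ s = -1)
    (hmod : (d : ℤ) ≡ s * ((3 : ℕ) : ℤ) [ZMOD ((19 : ℕ) : ℤ)]) :
    s * (d : ℤ) = 3 ∨ s * (d : ℤ) = 288 ∨ s * (d : ℤ) = -16 := by
  obtain ⟨i, j, k, hi, hj, hk, rfl⟩ := dvd_21888 hd
  unfold Int.ModEq at hmod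
  rcases hs with rfl | rfl <;> interval_cases i <;> interval_cases j <;> interval_cases k <;>
    first | omega | (exfalso; revert hmod; norm_num) | norm_num

/-- A group of order `2^7 * 3^2 * 19` whose Sylow `19`-subgroup `P` has `|N(P) : C(P)| = 3`
has a normal subgroup of index `3` containing `P` in which `P` is self-centralizing modulo
`C(P)`. -/
theorem exists_index_three {Γ : Type*} [Group Γ] [Finite Γ]
    (hcard : Nat.card Γ = 2 ^ 7 * 3 ^ 2 * 19) (P : Sylow 19 Γ) (hP : Nat.card P = 19)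
    (he : (Subgroup.centralizer ((P : Subgroup Γ) : Set Γ)).relIndex
      (Subgroup.normalizer ((P : Subgroup Γ) : Set Γ)) = 3) :
    ∃ K : Subgroup Γ, K.index = 3 ∧ (P : Subgroup Γ) ≤ K ∧
      Subgroup.normalizer ((P : Subgroup Γ) : Set Γ) ⊓ K ≤
        Subgroup.centralizer ((P : Subgroup Γ) : Set Γ) := by
  classical
  haveI : Fact (Nat.Prime 19) := ⟨by norm_num⟩
  letI : Fintype Γ := Fintype.ofFinite Γ
  obtain ⟨M, hM⟩ := Cfsg.Agent.H78.exists_isPModular 19 (by norm_num)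
  obtain ⟨X, Y, hB, hdisj, hXc, hYc, εX, ε, hX, hε, hYdeg, hYeq, hrel⟩ :=
    Cfsg.Agent.S4441.result 19 M hM (by norm_num) P hP 3 he
  obtain ⟨t, ht⟩ : ∃ t : IrrCharacter Γ, t = Cfsg.Agent.H21.E2Block.triv Γ := ⟨_, rfl⟩
  have htv : ∀ g : Γ, (t : Γ → ℂ) g = 1 := by
    intro g; rw [ht]; rfl
  have htB : t ∈ principalBlock M Γ := by
    rw [ht]; exact Cfsg.Agent.H81.mem_blockOf_self hM (Cfsg.Agent.H21.E2Block.triv Γ)
  have hdeg_t : charDegree (t : Γ → ℂ) = 1 := by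
    unfold charDegree; rw [htv]; simp
  have hreg1 : ¬ 19 ∣ orderOf (1 : Γ) := by rw [orderOf_one]; norm_num
  -- `t ∈ X`
  have htX : t ∈ X := by
    rw [hB] at htB
    rcases htB with h | h
    · exact h
    · exfalso
      have h1 := hYdeg t h
      rw [hdeg_t] at h1
      unfold Int.ModEq at h1
      rcases hε with rfl | rfl <;> norm_num at h1
  have hεt : εX t = 1 := by
    obtain ⟨h1, h2, -⟩ := hX t htX
    rw [hdeg_t] at h2
    unfold Int.ModEq at h2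
    rcases h1 with h | h
    · exact h
    · rw [h] at h2; norm_num at h2
  have hXn : X.ncard = 3 := by rw [← Nat.card_coe_set_eq]; exact hXc
  have hX2 : (X \ {t}).ncard = 2 := by
    rw [Set.ncard_sdiff_singleton_of_mem htX, hXn]
  obtain ⟨χ2, χ3, h23, hX23⟩ := Set.ncard_eq_two.mp hX2
  have hXeq : X = insert t {χ2, χ3} := by
    rw [← hX23, Set.insert_diff_singleton, Set.insert_eq_of_mem htX]
  have h2mem : χ2 ∈ X \ {t} := by rw [hX23]; simp
  have h3mem : χ3 ∈ X \ {t} := by rw [hX23]; simp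
  have h2X : χ2 ∈ X := h2mem.1
  have h3X : χ3 ∈ X := h3mem.1
  have h2t : χ2 ≠ t := fun h => h2mem.2 (by rw [h]; rfl)
  have h3t : χ3 ≠ t := fun h => h3mem.2 (by rw [h]; rfl)
  have hYn : Y.ncard = 6 := by rw [← Nat.card_coe_set_eq, hYc]
  obtain ⟨θ, hθ⟩ : Y.Nonempty := by
    rw [← Set.ncard_pos (Set.toFinite Y), hYn]; norm_num
  have h1 := hrel θ hθ 1 hreg1
  rw [hXeq, finsum_mem_insert _ (by simp [Ne.symm h2t, Ne.symm h3t]) (Set.toFinite _),
    finsum_mem_pair h23, (Cfsg.Agent.H81.irr_charDegree θ).1,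
    (Cfsg.Agent.H81.irr_charDegree χ2).1, (Cfsg.Agent.H81.irr_charDegree χ3).1, htv, hεt] at h1
  have h1' : ε * (charDegree (θ : Γ → ℂ) : ℤ) = 1 + (εX χ2 * (charDegree (χ2 : Γ → ℂ) : ℤ) +
      εX χ3 * (charDegree (χ3 : Γ → ℂ) : ℤ)) := by
    have : ((ε * (charDegree (θ : Γ → ℂ) : ℤ) : ℤ) : ℂ) =
        ((1 + (εX χ2 * (charDegree (χ2 : Γ → ℂ) : ℤ) +
          εX χ3 * (charDegree (χ3 : Γ → ℂ) : ℤ)) : ℤ) : ℂ) := by
      push_cast
      rw [h1]
      ring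
    exact_mod_cast this
  have hdvd : ∀ ψ : IrrCharacter Γ, charDegree (ψ : Γ → ℂ) ∣ 2 ^ 7 * 3 ^ 2 * 19 := by
    intro ψ
    have := Cfsg.Agent.H81.irr_charDegree_dvd ψ
    rwa [hcard] at this
  have c2 := deg_X_cases (hdvd χ2) (εX χ2) (hX χ2 h2X).1 (hX χ2 h2X).2.1
  have c3 := deg_X_cases (hdvd χ3) (εX χ3) (hX χ3 h3X).1 (hX χ3 h3X).2.1
  have cy := deg_Y_cases (hdvd θ) ε hε (hYdeg θ hθ)
  have key : εX χ2 * (charDegree (χ2 : Γ → ℂ) : ℤ) = 1 ∨
      εX χ3 * (charDegree (χ3 : Γ → ℂ) : ℤ) = 1 := by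
    generalize εX χ2 * (charDegree (χ2 : Γ → ℂ) : ℤ) = s2 at *
    generalize εX χ3 * (charDegree (χ3 : Γ → ℂ) : ℤ) = s3 at *
    generalize ε * (charDegree (θ : Γ → ℂ) : ℤ) = sy at *
    omega
  -- a nontrivial linear character in `X` with sign `+1`
  obtain ⟨χ, hχX, hχt, hsχ⟩ : ∃ χ : IrrCharacter Γ, χ ∈ X ∧ χ ≠ t ∧
      εX χ * (charDegree (χ : Γ → ℂ) : ℤ) = 1 := by
    rcases key with h | h
    · exact ⟨χ2, h2X, h2t, h⟩
    · exact ⟨χ3, h3X, h3t, h⟩
  have hεχ : εX χ = 1 := by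
    rcases (hX χ hχX).1 with h | h
    · exact h
    · rw [h] at hsχ
      have : (0 : ℤ) ≤ (charDegree (χ : Γ → ℂ) : ℤ) := Int.natCast_nonneg _
      omega
  have hdχ : charDegree (χ : Γ → ℂ) = 1 := by
    rw [hεχ, one_mul] at hsχ
    exact_mod_cast hsχ
  have hχ1 : (χ : Γ → ℂ) 1 = 1 := by
    rw [(Cfsg.Agent.H81.irr_charDegree χ).1, hdχ]; simp
  have hχP : ∀ x : Γ, x ∈ (P : Subgroup Γ) → x ≠ 1 → ∀ y : Γ,
      y ∈ Subgroup.centralizer ((P : Subgroup Γ) : Set Γ) → ¬ 19 ∣ orderOf y →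
      (χ : Γ → ℂ) (x * y) = 1 := by
    intro x hx hx1 y hy hy19
    rw [(hX χ hχX).2.2 x hx hx1 y hy hy19, hεχ]; simp
  obtain ⟨lam, hlam⟩ := Cfsg.Agent.H4.exists_hom_of_linear
    (Cfsg.Agent.H4.isCharacter_of_isIrrCharacter χ.2) hχ1
  have hker : ∀ g : Γ, lam g = 1 ↔ (χ : Γ → ℂ) g = 1 := by
    intro g
    have hg : (χ : Γ → ℂ) g = ((lam g : ℂˣ) : ℂ) := congrFun hlam g
    rw [hg]
    constructor
    · intro h; rw [h]; simp
    · intro h; exact Units.ext (by simpa using h)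
  have hPK : (P : Subgroup Γ) ≤ lam.ker := by
    intro x hx
    rw [MonoidHom.mem_ker]
    by_cases hx1 : x = 1
    · rw [hx1, map_one]
    · rw [hker]
      have := hχP x hx hx1 1 (Subgroup.one_mem _) hreg1
      rwa [mul_one] at this
  haveI : lam.ker.Normal := MonoidHom.normal_ker lam
  have hP' : Nat.card (P : Subgroup Γ) = 19 := hP
  have hKidx : ¬ 19 ∣ lam.ker.index := by
    intro h19
    have h1 : Nat.card lam.ker * lam.ker.index = 2 ^ 7 * 3 ^ 2 * 19 := by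
      rw [Subgroup.card_mul_index, hcard]
    have h2 : 19 ∣ Nat.card lam.ker := by
      have := Subgroup.card_dvd_of_le hPK
      rwa [hP'] at this
    have h3 : 19 * 19 ∣ 2 ^ 7 * 3 ^ 2 * 19 := by
      rw [← h1]; exact Nat.mul_dvd_mul h2 h19
    norm_num at h3
  obtain ⟨x0, hx0, hx01⟩ : ∃ x ∈ (P : Subgroup Γ), x ≠ 1 := by
    by_contra hcon
    push Not at hcon
    have hbot : (P : Subgroup Γ) = ⊥ := (Subgroup.eq_bot_iff_forall _).mpr hcon
    rw [hbot, Subgroup.card_bot] at hP'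
    norm_num at hP'
  have hCK : Subgroup.centralizer ((P : Subgroup Γ) : Set Γ) ≤ lam.ker := by
    intro c hc
    rw [MonoidHom.mem_ker]
    have hc19 : ¬ 19 ∣ orderOf (c ^ 19) := by
      intro h
      have h1 : (c ^ 19) ^ 1152 = 1 := by
        rw [← pow_mul]
        have h2 : c ^ Nat.card Γ = 1 := pow_card_eq_one'
        rw [hcard] at h2
        exact h2
      have h2 := h.trans (orderOf_dvd_of_pow_eq_one h1)
      norm_num at h2
    have h3 : lam (c ^ 19) = 1 := by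
      have h4 := hχP x0 hx0 hx01 (c ^ 19) (Subgroup.pow_mem _ hc 19) hc19
      have h5 : lam (x0 * c ^ 19) = 1 := (hker _).mpr h4
      rwa [map_mul, (MonoidHom.mem_ker).mp (hPK hx0), one_mul] at h5
    have h6 : lam c ^ 19 = 1 := by rw [← map_pow]; exact h3
    have h7 : lam c ^ lam.ker.index = 1 := by
      rw [← map_pow]; exact (MonoidHom.mem_ker).mp (Subgroup.pow_index_mem _ c)
    have h8 : orderOf (lam c) ∣ 19 := orderOf_dvd_of_pow_eq_one h6
    have h9 : orderOf (lam c) ∣ lam.ker.index := orderOf_dvd_of_pow_eq_one h7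
    have h10 : orderOf (lam c) = 1 := by
      rcases (Nat.dvd_prime (by norm_num : Nat.Prime 19)).mp h8 with h | h
      · exact h
      · rw [h] at h9; exact absurd h9 hKidx
    exact orderOf_eq_one_iff.mp h10
  have hKtop : lam.ker ≠ ⊤ := by
    intro h
    apply hχt
    apply Subtype.ext
    funext g
    have hg : g ∈ lam.ker := by rw [h]; trivial
    rw [(hker g).mp ((MonoidHom.mem_ker).mp hg), htv]
  have hfr : Subgroup.normalizer ((P : Subgroup Γ) : Set Γ) ⊔ lam.ker = ⊤ :=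
    Sylow.normalizer_sup_eq_top' P hPK
  have hCN : Subgroup.centralizer ((P : Subgroup Γ) : Set Γ) ≤
      Subgroup.normalizer ((P : Subgroup Γ) : Set Γ) := Subgroup.centralizer_le_normalizer _
  have hmul := Subgroup.relIndex_mul_relIndex _ _ _ (le_inf hCN hCK)
    (inf_le_left : Subgroup.normalizer ((P : Subgroup Γ) : Set Γ) ⊓ lam.ker ≤ _)
  rw [he] at hmul
  have hne1 : (Subgroup.normalizer ((P : Subgroup Γ) : Set Γ) ⊓ lam.ker).relIndex
      (Subgroup.normalizer ((P : Subgroup Γ) : Set Γ)) ≠ 1 := by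
    intro h
    have h1 := Subgroup.relIndex_eq_one.mp h
    have hNK : Subgroup.normalizer ((P : Subgroup Γ) : Set Γ) ≤ lam.ker := h1.trans inf_le_right
    rw [sup_eq_right.mpr hNK] at hfr
    exact hKtop hfr
  have h3 : (Subgroup.normalizer ((P : Subgroup Γ) : Set Γ) ⊓ lam.ker).relIndex
      (Subgroup.normalizer ((P : Subgroup Γ) : Set Γ)) = 3 ∧
      (Subgroup.centralizer ((P : Subgroup Γ) : Set Γ)).relIndex
        (Subgroup.normalizer ((P : Subgroup Γ) : Set Γ) ⊓ lam.ker) = 1 := by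
    have hd : (Subgroup.normalizer ((P : Subgroup Γ) : Set Γ) ⊓ lam.ker).relIndex
        (Subgroup.normalizer ((P : Subgroup Γ) : Set Γ)) ∣ 3 := Dvd.intro_left _ hmul
    rcases (Nat.dvd_prime Nat.prime_three).mp hd with h | h
    · exact absurd h hne1
    · rw [h] at hmul; exact ⟨h, by omega⟩
  refine ⟨lam.ker, ?_, hPK, Subgroup.relIndex_eq_one.mp h3.2⟩
  rw [← Subgroup.relIndex_top_right, ← hfr, Subgroup.relIndex_sup_right,
    ← Subgroup.inf_relIndex_right, inf_comm]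
  exact h3.1

end Cfsg.Agent.H82.O459
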