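import Cfsg.Agent.H13.SaDefs

set_option autoImplicit false

/-!
Piece S4025-COUNT1 of the team project S4025 (helper13): the number of subgroups of order `p` of
an elementary abelian group of order `p ^ n`.  Also the counting lemmas shared with COUNT2.
-/

namespace Cfsg.Agent.H82.Sa

open Cfsg.Agent.H13.Sa

universe u

theorem card_fiber_mul {α β : Type*} [Finite α] [Finite β] (f : α → β) (k : ℕ)
    (h : ∀ b, Nat.card {a // f a = b} = k) : Nat.card α = Nat.card β * k := by
  classical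
  haveI := Fintype.ofFinite β
  rw [Nat.card_congr (Equiv.sigmaFiberEquiv f).symm, Nat.card_sigma]
  simp [h, Nat.card_eq_fintype_card]

theorem card_sdiff_subgroup {N : Type u} [Group N] (A H : Subgroup N) [Finite A] (hHA : H ≤ A) :
    Nat.card {y : N // y ∈ A ∧ y ∉ H} = Nat.card A - Nat.card H := by
  have h1 : Nat.card {y : N // y ∈ A ∧ y ∉ H} = ((A : Set N) \ (H : Set N)).ncard := by
    rw [← Nat.card_coe_set_eq]
    rfl
  have hfin : (A : Set N).Finite := Set.toFinite _
  have h2 := Set.ncard_sdiff_add_ncard_of_subset (s := (H : Set N)) (t := (A : Set N))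
    (by exact_mod_cast hHA) hfin
  have h3 : Nat.card A = (A : Set N).ncard := (Nat.card_coe_set_eq (A : Set N))
  have h4 : Nat.card H = (H : Set N).ncard := (Nat.card_coe_set_eq (H : Set N))
  rw [h1, h3, h4]
  omega

theorem card_zpowers_of_pow {N : Type u} [Group N] (p : ℕ) [hp : Fact p.Prime] (x : N)
    (hx : x ^ p = 1) (hx1 : x ≠ 1) : Nat.card (Subgroup.zpowers x) = p := by
  rw [Nat.card_zpowers, orderOf_eq_prime hx hx1]

theorem finite_subgroups_le {N : Type u} [Group N] (Q : Subgroup N) [Finite Q]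
    (P : Subgroup N → Prop) : Finite {A : Subgroup N // A ≤ Q ∧ P A} := by
  apply Finite.of_injective (fun A : {A : Subgroup N // A ≤ Q ∧ P A} => A.1.subgroupOf Q)
  intro A B hAB
  apply Subtype.ext
  have h := (Subgroup.subgroupOf_inj).mp hAB
  rwa [inf_eq_left.mpr A.2.1, inf_eq_left.mpr B.2.1] at h

theorem count1 : Count1Stmt.{u} := by
  intro N _ Q _ p n hp hab hexp hcard
  classical
  haveI : Finite {A : Subgroup N // A ≤ Q ∧ Nat.card A = p} := finite_subgroups_le Q _
  haveI : Finite {x : N // x ∈ Q ∧ x ≠ 1} :=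
    Finite.of_injective (fun x : {x : N // x ∈ Q ∧ x ≠ 1} => (⟨x.1, x.2.1⟩ : Q))
      (fun a b h => Subtype.ext (by
        have h' := congrArg Subtype.val h
        exact h'))
  let f : {x : N // x ∈ Q ∧ x ≠ 1} → {A : Subgroup N // A ≤ Q ∧ Nat.card A = p} :=
    fun x => ⟨Subgroup.zpowers x.1, (Subgroup.zpowers_le.mpr x.2.1),
      card_zpowers_of_pow p x.1 (hexp _ x.2.1) x.2.2⟩
  have hfib : ∀ A : {A : Subgroup N // A ≤ Q ∧ Nat.card A = p},
      Nat.card {a : {x : N // x ∈ Q ∧ x ≠ 1} // f a = A} = p - 1 := by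
    intro A
    haveI : Finite A.1 := Nat.finite_of_card_ne_zero (by rw [A.2.2]; exact hp.out.ne_zero)
    have h1 := card_sdiff_subgroup A.1 ⊥ bot_le
    rw [Subgroup.card_bot, A.2.2] at h1
    rw [← h1]
    refine Nat.card_congr ((Equiv.subtypeSubtypeEquivSubtypeExists _ _).trans
      (Equiv.subtypeEquivRight ?_))
    intro x
    constructor
    · rintro ⟨h, hf⟩
      have hz : Subgroup.zpowers x = A.1 := congrArg Subtype.val hf
      refine ⟨hz ▸ Subgroup.mem_zpowers x, fun hx => h.2 (Subgroup.mem_bot.mp hx)⟩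
    · rintro ⟨hxA, hx1⟩
      have hx1' : x ≠ 1 := fun h => hx1 (Subgroup.mem_bot.mpr h)
      refine ⟨⟨A.2.1 hxA, hx1'⟩, Subtype.ext ?_⟩
      apply Subgroup.eq_of_le_of_card_ge (Subgroup.zpowers_le.mpr hxA)
      rw [A.2.2, card_zpowers_of_pow p x (hexp _ (A.2.1 hxA)) hx1']
  have hα : Nat.card {x : N // x ∈ Q ∧ x ≠ 1} = p ^ n - 1 := by
    have h1 := card_sdiff_subgroup Q ⊥ bot_le
    rw [Subgroup.card_bot, hcard] at h1
    rw [← h1]
    refine Nat.card_congr (Equiv.subtypeEquivRight ?_)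
    intro x
    rw [Subgroup.mem_bot]
  rw [← hα, card_fiber_mul f (p - 1) hfib]

end Cfsg.Agent.H82.Sa
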