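import Cfsg.Agent.H82.SaCount1

set_option autoImplicit false

/-!
Piece S4025-COUNT2 of the team project S4025 (helper13): the number of subgroups of order `p ^ 2`
of an elementary abelian group of order `p ^ n`.
-/

namespace Cfsg.Agent.H82.Sa

open Cfsg.Agent.H13.Sa

universe u

theorem card_closure_pair {N : Type u} [Group N] (p : ℕ) [hp : Fact p.Prime] (x y : N)
    (hxy : x * y = y * x) (hx : x ^ p = 1) (hy : y ^ p = 1) (hx1 : x ≠ 1)
    (hyx : y ∉ Subgroup.zpowers x) : Nat.card (Subgroup.closure ({x, y} : Set N)) = p ^ 2 := by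
  have hcl : Subgroup.closure ({x, y} : Set N) = Subgroup.zpowers x ⊔ Subgroup.zpowers y := by
    rw [Set.insert_eq, Subgroup.closure_union, Subgroup.zpowers_eq_closure,
      Subgroup.zpowers_eq_closure]
  have hy1 : y ≠ 1 := fun h => hyx (h ▸ one_mem _)
  have hcx := card_zpowers_of_pow p x hx hx1
  have hcy := card_zpowers_of_pow p y hy hy1
  have hcomm : ∀ (a : Subgroup.zpowers x) (b : Subgroup.zpowers y),
      Commute ((Subgroup.zpowers x).subtype a) ((Subgroup.zpowers y).subtype b) := by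
    rintro ⟨a, ha⟩ ⟨b, hb⟩
    obtain ⟨i, rfl⟩ := Subgroup.mem_zpowers_iff.mp ha
    obtain ⟨j, rfl⟩ := Subgroup.mem_zpowers_iff.mp hb
    exact (show Commute x y from hxy).zpow_zpow i j
  have hdisj : Disjoint (Subgroup.zpowers x) (Subgroup.zpowers y) := by
    rw [Subgroup.disjoint_def]
    intro z hzx hzy
    by_contra hz1
    have hzp : z ^ p = 1 := by
      obtain ⟨j, rfl⟩ := Subgroup.mem_zpowers_iff.mp hzy
      rw [← zpow_natCast, ← zpow_mul, mul_comm, zpow_mul, zpow_natCast, hy, one_zpow]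
    haveI : Finite (Subgroup.zpowers y) :=
      Nat.finite_of_card_ne_zero (by rw [hcy]; exact hp.out.ne_zero)
    have heq : Subgroup.zpowers z = Subgroup.zpowers y := by
      apply Subgroup.eq_of_le_of_card_ge (Subgroup.zpowers_le.mpr hzy)
      rw [hcy, card_zpowers_of_pow p z hzp hz1]
    apply hyx
    have h1 : y ∈ Subgroup.zpowers z := heq ▸ Subgroup.mem_zpowers y
    exact (Subgroup.zpowers_le.mpr hzx) h1
  have hinj : Function.Injective (MonoidHom.noncommCoprod (Subgroup.zpowers x).subtype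
      (Subgroup.zpowers y).subtype hcomm) := by
    rw [MonoidHom.noncommCoprod_injective]
    refine ⟨Subgroup.subtype_injective _, Subgroup.subtype_injective _, ?_⟩
    rw [Subgroup.range_subtype, Subgroup.range_subtype]
    exact hdisj
  have hrange := MonoidHom.noncommCoprod_range (Subgroup.zpowers x).subtype
    (Subgroup.zpowers y).subtype hcomm
  rw [Subgroup.range_subtype, Subgroup.range_subtype] at hrange
  rw [hcl, ← hrange, ← Nat.card_congr (MonoidHom.ofInjective hinj).toEquiv, Nat.card_prod, hcx,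
    hcy, sq]

theorem card_pairs {N : Type u} [Group N] (A : Subgroup N) [Finite A] (p : ℕ) [hp : Fact p.Prime]
    (hexp : ∀ a ∈ A, a ^ p = 1) :
    Nat.card {xy : N × N // xy.1 ∈ A ∧ xy.1 ≠ 1 ∧ xy.2 ∈ A ∧ xy.2 ∉ Subgroup.zpowers xy.1} =
      (Nat.card A - 1) * (Nat.card A - p) := by
  classical
  haveI : Finite {x : N // x ∈ A ∧ x ∉ (⊥ : Subgroup N)} :=
    Finite.of_injective (fun x : {x : N // x ∈ A ∧ x ∉ (⊥ : Subgroup N)} => (⟨x.1, x.2.1⟩ : A))
      (fun a b h => Subtype.ext (by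
        have h' := congrArg Subtype.val h
        exact h'))
  haveI : ∀ x : {x : N // x ∈ A ∧ x ∉ (⊥ : Subgroup N)},
      Finite {y : N // y ∈ A ∧ y ∉ Subgroup.zpowers x.1} := fun x =>
    Finite.of_injective (fun y : {y : N // y ∈ A ∧ y ∉ Subgroup.zpowers x.1} => (⟨y.1, y.2.1⟩ : A))
      (fun a b h => Subtype.ext (by
        have h' := congrArg Subtype.val h
        exact h'))
  haveI := Fintype.ofFinite {x : N // x ∈ A ∧ x ∉ (⊥ : Subgroup N)}
  let e : {xy : N × N // xy.1 ∈ A ∧ xy.1 ≠ 1 ∧ xy.2 ∈ A ∧ xy.2 ∉ Subgroup.zpowers xy.1} ≃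
      Σ x : {x : N // x ∈ A ∧ x ∉ (⊥ : Subgroup N)},
        {y : N // y ∈ A ∧ y ∉ Subgroup.zpowers x.1} :=
    { toFun := fun t => ⟨⟨t.1.1, t.2.1, fun h => t.2.2.1 (Subgroup.mem_bot.mp h)⟩,
        ⟨t.1.2, t.2.2.2.1, t.2.2.2.2⟩⟩
      invFun := fun s => ⟨(s.1.1, s.2.1), s.1.2.1, fun h => s.1.2.2 (Subgroup.mem_bot.mpr h),
        s.2.2.1, s.2.2.2⟩
      left_inv := fun t => rfl
      right_inv := fun s => rfl }
  rw [Nat.card_congr e, Nat.card_sigma]
  have h1 : ∀ x : {x : N // x ∈ A ∧ x ∉ (⊥ : Subgroup N)},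
      Nat.card {y : N // y ∈ A ∧ y ∉ Subgroup.zpowers x.1} = Nat.card A - p := by
    intro x
    rw [card_sdiff_subgroup A _ (Subgroup.zpowers_le.mpr x.2.1),
      card_zpowers_of_pow p x.1 (hexp _ x.2.1) (fun h => x.2.2 (Subgroup.mem_bot.mpr h))]
  rw [Finset.sum_congr rfl (fun x _ => h1 x), Finset.sum_const, Finset.card_univ, smul_eq_mul,
    ← Nat.card_eq_fintype_card, card_sdiff_subgroup A ⊥ bot_le, Subgroup.card_bot]

theorem count2 : Count2Stmt.{u} := by
  intro N _ Q _ p n hp hab hexp hcard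
  classical
  haveI : Finite {A : Subgroup N // A ≤ Q ∧ Nat.card A = p ^ 2} := finite_subgroups_le Q _
  haveI : Finite {xy : N × N // xy.1 ∈ Q ∧ xy.1 ≠ 1 ∧ xy.2 ∈ Q ∧
      xy.2 ∉ Subgroup.zpowers xy.1} :=
    Finite.of_injective (fun t : {xy : N × N // xy.1 ∈ Q ∧ xy.1 ≠ 1 ∧ xy.2 ∈ Q ∧
        xy.2 ∉ Subgroup.zpowers xy.1} => (((⟨t.1.1, t.2.1⟩ : Q), (⟨t.1.2, t.2.2.2.1⟩ : Q))))
      (fun a b h => Subtype.ext (Prod.ext (congrArg (fun z : Q × Q => z.1.1) h)
        (congrArg (fun z : Q × Q => z.2.1) h)))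
  let f : {xy : N × N // xy.1 ∈ Q ∧ xy.1 ≠ 1 ∧ xy.2 ∈ Q ∧ xy.2 ∉ Subgroup.zpowers xy.1} →
      {A : Subgroup N // A ≤ Q ∧ Nat.card A = p ^ 2} :=
    fun t => ⟨Subgroup.closure {t.1.1, t.1.2}, (Subgroup.closure_le _).mpr (by
        intro z hz
        rcases hz with rfl | rfl
        · exact t.2.1
        · exact t.2.2.2.1),
      card_closure_pair p t.1.1 t.1.2 (hab _ t.2.1 _ t.2.2.2.1) (hexp _ t.2.1)
        (hexp _ t.2.2.2.1) t.2.2.1 t.2.2.2.2⟩
  have hfib : ∀ A : {A : Subgroup N // A ≤ Q ∧ Nat.card A = p ^ 2},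
      Nat.card {a // f a = A} = (p ^ 2 - 1) * (p ^ 2 - p) := by
    intro A
    haveI : Finite A.1 :=
      Nat.finite_of_card_ne_zero (by rw [A.2.2]; exact pow_ne_zero _ hp.out.ne_zero)
    have h1 := card_pairs A.1 p (fun a ha => hexp a (A.2.1 ha))
    rw [A.2.2] at h1
    rw [← h1]
    refine Nat.card_congr ((Equiv.subtypeSubtypeEquivSubtypeExists _ _).trans
      (Equiv.subtypeEquivRight ?_))
    intro xy
    constructor
    · rintro ⟨h, hf⟩
      have hz : Subgroup.closure {xy.1, xy.2} = A.1 := congrArg Subtype.val hf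
      exact ⟨hz ▸ Subgroup.subset_closure (Set.mem_insert _ _), h.2.1,
        hz ▸ Subgroup.subset_closure (Set.mem_insert_of_mem _ rfl), h.2.2.2⟩
    · rintro ⟨hxA, hx1, hyA, hyx⟩
      refine ⟨⟨A.2.1 hxA, hx1, A.2.1 hyA, hyx⟩, Subtype.ext ?_⟩
      apply Subgroup.eq_of_le_of_card_ge ((Subgroup.closure_le _).mpr ?_)
      · exact le_of_eq (A.2.2.trans (card_closure_pair p xy.1 xy.2
          (hab _ (A.2.1 hxA) _ (A.2.1 hyA)) (hexp _ (A.2.1 hxA)) (hexp _ (A.2.1 hyA))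
          hx1 hyx).symm)
      · intro z hz
        rcases hz with rfl | rfl
        · exact hxA
        · exact hyA
  have hα := card_pairs Q p hexp
  rw [hcard] at hα
  rw [← hα, card_fiber_mul f _ hfib]

end Cfsg.Agent.H82.Sa
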