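import Cfsg.Agent.H13.SaDefs

set_option autoImplicit false

/-!
Piece S4025-NUM of the team project S4025 (helper13): the arithmetic of points and lines.
With `p = q + 1`, `m = 1 + p + ... + p ^ (n - 1)` and `L * (p + 1) = m * (1 + ... + p ^ (n - 2))`.
-/

namespace Cfsg.Agent.H82.Sa

open Cfsg.Agent.H13.Sa

/-- The geometric sum `1 + (q + 1) + ... + (q + 1) ^ (k - 1)`. -/
def gs (q : ℕ) (k : ℕ) : ℕ := ∑ i ∈ Finset.range k, (q + 1) ^ i

/-- The sum `1 + (q + 1) ^ 2 + ... + (q + 1) ^ (2 * (j - 1))`. -/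
def es (q : ℕ) (j : ℕ) : ℕ := ∑ i ∈ Finset.range j, (q + 1) ^ (2 * i)

theorem gs_succ (q k : ℕ) : gs q (k + 1) = gs q k + (q + 1) ^ k := Finset.sum_range_succ _ _

theorem es_succ (q j : ℕ) : es q (j + 1) = es q j + (q + 1) ^ (2 * j) :=
  Finset.sum_range_succ _ _

theorem gs_zero (q : ℕ) : gs q 0 = 0 := Finset.sum_range_zero _

theorem es_zero (q : ℕ) : es q 0 = 0 := Finset.sum_range_zero _

theorem gs_key (q k : ℕ) : gs q k * q + 1 = (q + 1) ^ k := by
  induction k with
  | zero => simp [gs_zero]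
  | succ k ih =>
    rw [gs_succ, pow_succ, ← ih]
    ring

theorem gs_even (q j : ℕ) : gs q (2 * j) = (q + 2) * es q j := by
  induction j with
  | zero => simp [gs_zero, es_zero]
  | succ j ih =>
    have h : 2 * (j + 1) = 2 * j + 1 + 1 := by ring
    rw [h, gs_succ, gs_succ, ih, es_succ]
    ring

theorem gs_odd (q j : ℕ) : gs q (2 * j + 1) = 1 + (q + 1) * (q + 2) * es q j := by
  induction j with
  | zero => simp [gs_succ, gs_zero, es_zero]
  | succ j ih =>
    have h : 2 * (j + 1) + 1 = 2 * j + 1 + 1 + 1 := by ring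
    rw [h, gs_succ, gs_succ, ih, es_succ]
    ring

theorem gs_ge (q : ℕ) (hq : 1 ≤ q) (k : ℕ) (hk : 3 ≤ k) : k + 4 ≤ gs q k := by
  induction k, hk using Nat.le_induction with
  | base =>
    have h : gs q 3 = 1 + (q + 1) + (q + 1) ^ 2 := by simp [gs, Finset.sum_range_succ]
    have h2 := Nat.pow_le_pow_left (show 2 ≤ q + 1 by omega) 2
    rw [h]
    omega
  | succ k hk ih =>
    rw [gs_succ]
    have h1 : 1 ≤ (q + 1) ^ k := Nat.one_le_pow _ _ (by omega)
    omega

theorem es_ge (q : ℕ) (hq : 1 ≤ q) (j : ℕ) (hj : 3 ≤ j) : 2 * j + 15 ≤ es q j := by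
  induction j, hj using Nat.le_induction with
  | base =>
    have h : es q 3 = 1 + (q + 1) ^ 2 + (q + 1) ^ 4 := by simp [es, Finset.sum_range_succ]
    have h2 := Nat.pow_le_pow_left (show 2 ≤ q + 1 by omega) 2
    have h4 := Nat.pow_le_pow_left (show 2 ≤ q + 1 by omega) 4
    rw [h]
    omega
  | succ j hj ih =>
    rw [es_succ]
    have h1 : 2 ≤ (q + 1) ^ (2 * j) := by
      calc 2 ≤ q + 1 := by omega
        _ = (q + 1) ^ 1 := (pow_one _).symm
        _ ≤ (q + 1) ^ (2 * j) := Nat.pow_le_pow_right (by omega) (by omega)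
    omega

theorem num : NumStmt := by
  intro p n t m L hp hn h1 h2 hmt hLt ht h3
  obtain ⟨q, rfl⟩ : ∃ q, p = q + 1 := ⟨p - 1, by have := hp.two_le; omega⟩
  have hq : 1 ≤ q := by have := hp.two_le; omega
  obtain ⟨n', rfl⟩ : ∃ n', n = n' + 1 := ⟨n - 1, by omega⟩
  have hn' : 2 ≤ n' := by omega
  rw [Nat.add_sub_cancel] at h1 h3
  have e1 : (q + 1) ^ (n' + 1) - 1 = gs q (n' + 1) * q := by
    have := gs_key q (n' + 1)
    omega
  have e2 : (q + 1) ^ (n' + 1) - (q + 1) = (q + 1) * (gs q n' * q) := by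
    apply Nat.sub_eq_of_eq_add
    rw [pow_succ, ← gs_key q n']
    ring
  have e3 : (q + 1) ^ 2 - 1 = q * (q + 2) := by
    apply Nat.sub_eq_of_eq_add
    ring
  have e4 : (q + 1) ^ 2 - (q + 1) = (q + 1) * q := by
    apply Nat.sub_eq_of_eq_add
    ring
  rw [e1] at h1 h3
  rw [e1, e2, e3, e4] at h2
  have hm : m = gs q (n' + 1) := Nat.eq_of_mul_eq_mul_right (by omega) h1
  have hL : L * (q + 2) = gs q (n' + 1) * gs q n' := by
    have hpos : 0 < q * q * (q + 1) := by positivity
    apply Nat.eq_of_mul_eq_mul_right hpos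
    calc L * (q + 2) * (q * q * (q + 1)) = L * (q * (q + 2) * ((q + 1) * q)) := by ring
      _ = gs q (n' + 1) * q * ((q + 1) * (gs q n' * q)) := h2
      _ = gs q (n' + 1) * gs q n' * (q * q * (q + 1)) := by ring
  have hG : 0 < gs q (n' + 1) := by
    rw [gs_succ]
    have h5 : 1 ≤ (q + 1) ^ n' := Nat.one_le_pow _ _ (by omega)
    omega
  have ht' : t ≤ (n' + 1) * gs q (n' + 1) :=
    Nat.le_of_mul_le_mul_right (calc t * q ≤ (n' + 1) * (gs q (n' + 1) * q) := h3
      _ = (n' + 1) * gs q (n' + 1) * q := by ring) hq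
  subst hm
  obtain ⟨s, rfl⟩ := hmt
  have hs : 0 < s := by
    rcases Nat.eq_zero_or_pos s with h | h
    · rw [h, mul_zero] at ht
      exact absurd ht (lt_irrefl 0)
    · exact h
  have hsn : s ≤ n' + 1 := by
    have h5 : gs q (n' + 1) * s ≤ gs q (n' + 1) * (n' + 1) := by
      rw [mul_comm _ (n' + 1)]
      exact ht'
    exact Nat.le_of_mul_le_mul_left h5 hG
  obtain ⟨r, hr⟩ := hLt
  have hdiv : gs q n' ∣ s * (q + 2) := by
    refine ⟨r, ?_⟩
    apply Nat.eq_of_mul_eq_mul_left hG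
    calc gs q (n' + 1) * (s * (q + 2)) = gs q (n' + 1) * s * (q + 2) := by ring
      _ = L * r * (q + 2) := by rw [hr]
      _ = L * (q + 2) * r := by ring
      _ = gs q (n' + 1) * gs q n' * r := by rw [hL]
      _ = gs q (n' + 1) * (gs q n' * r) := by ring
  rcases Nat.even_or_odd' n' with ⟨j, hj | hj⟩
  · subst hj
    rw [gs_even] at hdiv
    have hE : es q j ∣ s := by
      have h5 : (q + 2) * es q j ∣ (q + 2) * s := by rwa [mul_comm (q + 2) s]
      exact Nat.dvd_of_mul_dvd_mul_left (by omega) h5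
    have hle := Nat.le_of_dvd hs hE
    rcases Nat.lt_or_ge j 3 with hj3 | hj3
    · have hj12 : j = 1 ∨ j = 2 := by omega
      rcases hj12 with rfl | rfl
      · left
        rfl
      · right
        have h6 : es q 2 = 1 + (q + 1) ^ 2 := by simp [es, Finset.sum_range_succ]
        rw [h6] at hle
        have hq2 : q < 2 := by
          by_contra hc
          push Not at hc
          have h7 := Nat.pow_le_pow_left (show 3 ≤ q + 1 by omega) 2
          omega
        exact ⟨rfl, by omega⟩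
    · have h6 := es_ge q hq j hj3
      omega
  · subst hj
    have hcop : Nat.Coprime (gs q (2 * j + 1)) (q + 2) := by
      rw [gs_odd]
      have h5 : 1 + (q + 1) * (q + 2) * es q j = 1 + (q + 2) * ((q + 1) * es q j) := by ring
      rw [h5, Nat.coprime_add_mul_left_left]
      exact Nat.coprime_one_left _
    have hd : gs q (2 * j + 1) ∣ s := hcop.dvd_of_dvd_mul_right hdiv
    have hle := Nat.le_of_dvd hs hd
    have h6 := gs_ge q hq (2 * j + 1) (by omega)
    omega

end Cfsg.Agent.H82.Sa
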