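import Mathlib
import Cfsg.Prelude.Def_Blocks
import Cfsg.Agent.H82.IndDeg

/-!
# Characters induced from a Sylow subgroup (helper82)
-/

set_option autoImplicit false

namespace Cfsg.Agent.H82

open Cfsg.Agent.H4
open scoped ComplexConjugate

section

variable {G : Type*} [Group G] [Fintype G]

/-- If an irreducible character is induced from a character of a Sylow `p`-subgroup then
`#G / χ(1)` is a power of `p`. -/
theorem codeg_pow_of_induced (p : ℕ) [Fact p.Prime] (χ : Cfsg.IrrCharacter G)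
    (P : Sylow p G) (θ : ↥(P : Subgroup G) → ℂ) (hθ : Cfsg.IsCharacter ↥(P : Subgroup G) θ)
    (hχ : χ.1 = Cfsg.indFun (P : Subgroup G) θ) :
    ∃ k : ℕ, Nat.card G = p ^ k * Cfsg.charDegree χ.1 := by
  classical
  have hFP : Fintype (P : Subgroup G) := Fintype.ofFinite _
  letI := fintypeIrr (P : Subgroup G)
  obtain ⟨m, hm⟩ := isCharacter_iff.mp hθ
  have h1 : Cfsg.classInner θ (fun h : (P : Subgroup G) => χ.1 h) = 1 := by
    rw [← frobenius_reciprocity (P : Subgroup G) θ χ.1 (irr_isClassFunction χ), ← hχ]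
    exact irr_inner_self χ
  have h2 : ∑ ψ : Cfsg.IrrCharacter (P : Subgroup G),
      (m ψ : ℂ) * Cfsg.classInner ψ.1 (fun h : (P : Subgroup G) => χ.1 h) = 1 := by
    rw [← h1]
    conv_rhs => rw [hm]
    rw [finsum_irr_eq_sum, classInner_sum_left]
    refine Finset.sum_congr rfl fun ψ _ => ?_
    rw [classInner_smul_left]
  obtain ⟨ψ0, hψ0⟩ : ∃ ψ0 : Cfsg.IrrCharacter (P : Subgroup G),
      (m ψ0 : ℂ) * Cfsg.classInner ψ0.1 (fun h : (P : Subgroup G) => χ.1 h) ≠ 0 := by
    by_contra hcon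
    push Not at hcon
    rw [Finset.sum_eq_zero (fun ψ _ => hcon ψ)] at h2
    exact zero_ne_one h2
  have hm0 : m ψ0 ≠ 0 := by
    intro h0
    apply hψ0
    rw [h0]
    simp
  have hin : Cfsg.classInner (Cfsg.indFun (P : Subgroup G) ψ0.1) χ.1 ≠ 0 := by
    rw [frobenius_reciprocity (P : Subgroup G) ψ0.1 χ.1 (irr_isClassFunction χ)]
    exact right_ne_zero_of_mul hψ0
  obtain ⟨r, hr, -⟩ := constituent_degree (isCharacter_indFun (P : Subgroup G) ψ0.1
    (isCharacter_of_isIrrCharacter ψ0.2)) χ hin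
  have e1 : (P : Subgroup G).index * Cfsg.charDegree ψ0.1 = Cfsg.charDegree χ.1 + r := by
    rw [indFun_one, irr_one_eq_charDegree, irr_one_eq_charDegree] at hr
    exact_mod_cast hr
  have e2 : Cfsg.charDegree χ.1 = (P : Subgroup G).index *
      ∑ ψ : Cfsg.IrrCharacter (P : Subgroup G), m ψ * Cfsg.charDegree ψ.1 := by
    have h3 : χ.1 1 = Cfsg.indFun (P : Subgroup G) θ 1 := by rw [hχ]
    rw [indFun_one, irr_one_eq_charDegree] at h3
    have h4 : θ 1 = ((∑ ψ : Cfsg.IrrCharacter (P : Subgroup G),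
        m ψ * Cfsg.charDegree ψ.1 : ℕ) : ℂ) := by
      rw [← finsum_irr_one m, ← hm]
    rw [h4] at h3
    exact_mod_cast h3
  have e3 : Cfsg.charDegree ψ0.1 ≤
      ∑ ψ : Cfsg.IrrCharacter (P : Subgroup G), m ψ * Cfsg.charDegree ψ.1 := by
    calc Cfsg.charDegree ψ0.1 ≤ m ψ0 * Cfsg.charDegree ψ0.1 :=
          Nat.le_mul_of_pos_left _ (Nat.pos_of_ne_zero hm0)
      _ ≤ _ := Finset.single_le_sum (f := fun ψ => m ψ * Cfsg.charDegree ψ.1)
          (fun _ _ => Nat.zero_le _) (Finset.mem_univ ψ0)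
  have e4 : Cfsg.charDegree χ.1 = (P : Subgroup G).index * Cfsg.charDegree ψ0.1 := by
    have : (P : Subgroup G).index * Cfsg.charDegree ψ0.1 ≤ Cfsg.charDegree χ.1 := by
      rw [e2]
      exact Nat.mul_le_mul_left _ e3
    omega
  have hdP : Cfsg.charDegree ψ0.1 ∣ Nat.card (P : Subgroup G) := charDegree_dvd_card ψ0
  obtain ⟨b, hb⟩ := IsPGroup.iff_card.mp P.isPGroup'
  rw [hb] at hdP
  obtain ⟨a, hab, hda⟩ := (Nat.dvd_prime_pow (Fact.out)).mp hdP
  refine ⟨b - a, ?_⟩
  rw [e4, hda, ← Subgroup.card_mul_index (P : Subgroup G), hb]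
  have : p ^ b = p ^ (b - a) * p ^ a := by rw [← pow_add, Nat.sub_add_cancel hab]
  rw [this]
  ring

/-- If `#G / χ(1)` is a power of `p` then the irreducible character `χ` is induced from a
character of a Sylow `p`-subgroup. -/
theorem induced_of_codeg_pow (p : ℕ) [Fact p.Prime] (χ : Cfsg.IrrCharacter G)
    (k : ℕ) (hk : Nat.card G = p ^ k * Cfsg.charDegree χ.1) :
    ∃ (P : Sylow p G) (θ : ↥(P : Subgroup G) → ℂ), Cfsg.IsCharacter ↥(P : Subgroup G) θ ∧
      χ.1 = Cfsg.indFun (P : Subgroup G) θ := by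
  classical
  obtain ⟨P⟩ : Nonempty (Sylow p G) := inferInstance
  have hp : p.Prime := Fact.out
  have hFP : Fintype (P : Subgroup G) := Fintype.ofFinite _
  letI := fintypeIrr (P : Subgroup G)
  have hres : Cfsg.IsCharacter (P : Subgroup G) (fun h : (P : Subgroup G) => χ.1 h) :=
    isCharacter_restrict (P : Subgroup G) (isCharacter_of_isIrrCharacter χ.2)
  obtain ⟨m, hm⟩ := isCharacter_iff.mp hres
  have hnpos : 0 < Cfsg.charDegree χ.1 := charDegree_pos χ
  have e1 : Cfsg.charDegree χ.1 =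
      ∑ ψ : Cfsg.IrrCharacter (P : Subgroup G), m ψ * Cfsg.charDegree ψ.1 := by
    have e1' : χ.1 1 = ((∑ ψ : Cfsg.IrrCharacter (P : Subgroup G),
        m ψ * Cfsg.charDegree ψ.1 : ℕ) : ℂ) := by
      rw [← finsum_irr_one m, ← hm]
      rfl
    rw [irr_one_eq_charDegree] at e1'
    exact_mod_cast e1'
  have hsupp : (Finset.univ.filter
      (fun ψ : Cfsg.IrrCharacter (P : Subgroup G) => m ψ ≠ 0)).Nonempty := by
    by_contra hcon
    rw [Finset.not_nonempty_iff_eq_empty, Finset.filter_eq_empty_iff] at hcon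
    have : Cfsg.charDegree χ.1 = 0 := by
      rw [e1]
      apply Finset.sum_eq_zero
      intro ψ hψ
      have := hcon (Finset.mem_univ ψ)
      push Not at this
      rw [this, zero_mul]
    omega
  obtain ⟨θ0, hθ0mem, hθ0min⟩ :=
    Finset.exists_min_image _ (fun ψ : Cfsg.IrrCharacter (P : Subgroup G) =>
      Cfsg.charDegree ψ.1) hsupp
  have hmθ0 : m θ0 ≠ 0 := (Finset.mem_filter.mp hθ0mem).2
  obtain ⟨b, hb⟩ := IsPGroup.iff_card.mp P.isPGroup'
  have hpow : ∀ ψ : Cfsg.IrrCharacter (P : Subgroup G),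
      ∃ a, a ≤ b ∧ Cfsg.charDegree ψ.1 = p ^ a := by
    intro ψ
    have := charDegree_dvd_card ψ
    rw [hb] at this
    exact (Nat.dvd_prime_pow hp).mp this
  obtain ⟨a, hab, hda⟩ := hpow θ0
  have hdvd : p ^ a ∣ Cfsg.charDegree χ.1 := by
    rw [e1]
    apply Finset.dvd_sum
    intro ψ _
    by_cases hmψ : m ψ = 0
    · rw [hmψ, zero_mul]
      exact dvd_zero _
    · obtain ⟨a', -, hda'⟩ := hpow ψ
      have hle := hθ0min ψ (Finset.mem_filter.mpr ⟨Finset.mem_univ _, hmψ⟩)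
      rw [hda, hda'] at hle
      have : a ≤ a' := (Nat.pow_le_pow_iff_right hp.one_lt).mp hle
      rw [hda']
      exact Dvd.dvd.mul_left (pow_dvd_pow p this) _
  obtain ⟨n', hn'⟩ := hdvd
  have hidx := Subgroup.card_mul_index (P : Subgroup G)
  rw [hb, hk, hn'] at hidx
  have hcop : Nat.Coprime (p ^ (k + a)) (P : Subgroup G).index :=
    Nat.Coprime.pow_left _ ((Nat.Prime.coprime_iff_not_dvd hp).mpr P.not_dvd_index)
  have hdiv : p ^ (k + a) ∣ p ^ b := by
    have : p ^ (k + a) ∣ p ^ b * (P : Subgroup G).index := ⟨n', by rw [hidx, pow_add]; ring⟩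
    exact hcop.dvd_of_dvd_mul_right this
  have hle : k + a ≤ b := (Nat.pow_dvd_pow_iff_le_right hp.one_lt).mp hdiv
  have hn_eq : Cfsg.charDegree χ.1 = (P : Subgroup G).index * p ^ (b - k) := by
    have h3 : p ^ k * Cfsg.charDegree χ.1 = p ^ k * ((P : Subgroup G).index * p ^ (b - k)) := by
      rw [← hk, ← Subgroup.card_mul_index (P : Subgroup G), hb]
      have : p ^ b = p ^ k * p ^ (b - k) := by
        rw [← pow_add]
        congr 1
        omega
      rw [this]
      ring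
    exact Nat.eq_of_mul_eq_mul_left (pow_pos hp.pos k) h3
  have hin : Cfsg.classInner (Cfsg.indFun (P : Subgroup G) θ0.1) χ.1 ≠ 0 := by
    rw [frobenius_reciprocity (P : Subgroup G) θ0.1 χ.1 (irr_isClassFunction χ),
      ← classInner_conj_symm, hm, classInner_finsum_irr (fun ψ => (m ψ : ℂ)) θ0]
    simpa using hmθ0
  obtain ⟨r, hr, hr0⟩ := constituent_degree (isCharacter_indFun (P : Subgroup G) θ0.1
    (isCharacter_of_isIrrCharacter θ0.2)) χ hin
  have e5 : (P : Subgroup G).index * p ^ a = Cfsg.charDegree χ.1 + r := by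
    rw [indFun_one, irr_one_eq_charDegree, irr_one_eq_charDegree, hda] at hr
    exact_mod_cast hr
  have hr0' : r = 0 := by
    have : (P : Subgroup G).index * p ^ a ≤ Cfsg.charDegree χ.1 := by
      rw [hn_eq]
      exact Nat.mul_le_mul_left _ (Nat.pow_le_pow_right hp.pos (by omega))
    omega
  exact ⟨P, θ0.1, isCharacter_of_isIrrCharacter θ0.2, (hr0 hr0').symm⟩

end

end Cfsg.Agent.H82
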